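import Cfsg.Agent.H87.SylIn
import Cfsg.Agent.H87.AlgGood
import Cfsg.Agent.H1.Glauberman
import Cfsg.Agent.H1.NilComm
import Cfsg.Agent.H30.Chief

/-! The average dimension of fixed point spaces on a non-central chief factor of a solvable group is
at most half of the dimension (Neumann and Vaughan-Lee). -/

set_option autoImplicit false
set_option linter.unusedSectionVars false

namespace Cfsg.Agent.H86.Avg

open Cfsg Cfsg.Agent.H87 Subgroup

variable {G : Type*} [Group G] [Finite G]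

/-- The elements centralising `x` modulo `B`. -/
def Fx (B : Subgroup G) (x : G) : Subgroup G where
  carrier := {a | a ∈ No B ∧ a * x * a⁻¹ * x⁻¹ ∈ B}
  one_mem' := ⟨one_mem _, by simp⟩
  mul_mem' := fun {a b} ha hb => ⟨mul_mem ha.1 hb.1, by
    have := mul_mem (conj_mem_of_No ha.1 hb.2) ha.2
    rwa [show a * (b * x * b⁻¹ * x⁻¹) * a⁻¹ * (a * x * a⁻¹ * x⁻¹) =
      a * b * x * (a * b)⁻¹ * x⁻¹ by group] at this⟩
  inv_mem' := fun {a} ha => ⟨inv_mem ha.1, by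
    have := conj_mem_of_No' ha.1 (inv_mem ha.2)
    rwa [show a⁻¹ * (a * x * a⁻¹ * x⁻¹)⁻¹ * a = a⁻¹ * x * a⁻¹⁻¹ * x⁻¹ by group] at this⟩

theorem mem_Fx {B : Subgroup G} {x a : G} : a ∈ Fx B x ↔ a ∈ No B ∧ a * x * a⁻¹ * x⁻¹ ∈ B := Iff.rfl

theorem Fx_bot (x : G) : Fx ⊥ x = centralizer {x} := by
  ext a
  rw [mem_Fx, and_iff_right (H49.le_norm_bot ⊤ (mem_top a)), mem_bot, mul_inv_eq_one,
    mul_inv_eq_iff_eq_mul, mem_centralizer_singleton_iff]

theorem le_Fx {B : Subgroup G} {x : G} (h : x ∈ No B) : B ≤ Fx B x := fun a ha =>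
  ⟨le_normalizer ha, by simpa [mul_assoc] using mul_mem ha (conj_mem_of_No h (inv_mem ha))⟩

variable {V N : Subgroup G}

theorem le_No_of_ab (hab : V ≤ Ce V) {B : Subgroup G} (h : B ≤ V) : V ≤ No B :=
  hab.trans ((Ce_anti h).trans (Ce_le_No B))

theorem coset_le [Fintype N] [N.Normal] (hab : V ≤ Ce V) (hN : ⁅N, N⁆ ≤ Ce V)
    (hP : ∀ B M : Subgroup G, B < M → M ≤ V → N ≤ No B → ∃ n ∈ N, ¬ M ≤ Fx B n) (g : G) (k : ℕ) :
    ∀ B M : Subgroup G, Nat.card M - Nat.card B = k → B ≤ M → M ≤ V → N ⊔ zpowers g ≤ No B →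
      N ⊔ zpowers g ≤ No M →
      ∏ n : N, Nat.card ↥(M ⊓ Fx B (g * n)) ^ 2 ≤ (Nat.card M * Nat.card B) ^ Fintype.card N := by
  induction k using Nat.strong_induction_on with
  | _ k ih =>
  intro B M hk hBM hMV hB hM
  have hT : ∀ n : N, g * n ∈ N ⊔ zpowers g := fun n =>
    mul_mem (mem_sup_right (mem_zpowers g)) (mem_sup_left n.2)
  have hone : (∀ n : N, Nat.card ↥(M ⊓ Fx B (g * n)) ^ 2 ≤ Nat.card M * Nat.card B) → _ := fun h =>
    (Finset.prod_le_prod' fun n _ => h n).trans_eq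
      (show ∏ _n : N, Nat.card M * Nat.card B = _ by rw [Finset.prod_const, Finset.card_univ])
  rcases hBM.eq_or_lt with rfl | hlt
  · exact hone fun n => by rw [sq]; gcongr <;> exact card_le_of_le inf_le_left
  by_cases h : ∃ U : Subgroup G, B < U ∧ U < M ∧ N ⊔ zpowers g ≤ No U
  · obtain ⟨U, h1, h2, h3⟩ := h
    have c1 := H49.card_lt_of_lt h1
    have c2 := H49.card_lt_of_lt h2
    have i1 := ih _ (by omega) B U rfl h1.le (h2.le.trans hMV) hB h3
    have i2 := ih _ (by omega) U M rfl h2.le hMV h3 hM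
    refine Nat.le_of_mul_le_mul_right (c := (Nat.card U ^ 2) ^ Fintype.card N) ?_ (by
      have := H49.card_pos' U; positivity)
    refine le_trans ?_ ((Nat.mul_le_mul i2 i1).trans_eq (by rw [← mul_pow, ← mul_pow]; ring))
    rw [← Finset.card_univ, ← Finset.prod_const, ← Finset.prod_mul_distrib,
      ← Finset.prod_mul_distrib]
    refine Finset.prod_le_prod' fun n _ => ?_
    rw [← mul_pow, ← mul_pow]
    refine Nat.pow_le_pow_left ((H49.card_mul_le (H := M ⊓ Fx B (g * n)) (M := M ⊓ Fx U (g * n)) (fun a ha =>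
      ⟨ha.1, le_No_of_ab hab (h2.le.trans hMV) (hMV ha.1), h1.le ha.2.2⟩)
      (le_inf h2.le (le_Fx (h3 (hT n))))).trans (Nat.mul_le_mul_left _ (card_le_of_le ?_))) 2
    exact fun a ha => ⟨ha.2, ha.1.2⟩
  have key : ∀ U : Subgroup G, B ≤ U → U < M → N ≤ No U → ∀ n : N,
      M ⊓ Fx B (g * n) ⊓ U ≤ B := fun U h1 h2 h3 n a ha => by
    let D : Subgroup G := ⨅ t : ↥(N ⊔ zpowers g), cjS (t : G) U
    have hD : D ≤ U := (iInf_le _ 1).trans_eq (cjS_one U)
    have hBD : B ≤ D := le_iInf fun t => (mem_No_iff_cjS.1 (hB t.2)).ge.trans (cjS_mono _ h1)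
    have hND : N ⊔ zpowers g ≤ No D := fun s hs => mem_No_iff_cjS.2 <|
      H49.eq_of_le_of_card_eq (le_iInf fun t y hy => mem_cjS.2 (by
        simpa [mul_assoc] using mem_cjS.1 (mem_iInf.1 (mem_cjS.1 hy) (⟨s, hs⟩⁻¹ * t))))
        (card_cjS s D)
    refine (hBD.eq_or_lt.resolve_right fun e => h ⟨D, e, hD.trans_lt h2, hND⟩).ge
      (mem_iInf.2 fun t => mem_cjS.2 ?_)
    obtain ⟨m, hm, s, hs, e⟩ := mem_sup_of_le_No (N := N) (S := zpowers (g * n))
      le_normalizer_of_normal (sup_le le_sup_left (zpowers_le.2 (by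
        simpa using mul_mem (mem_sup_right (mem_zpowers (g * n)))
          (mem_sup_left (inv_mem n.2)))) (inv_mem t.2))
    have h4 : s ∈ Fx B a := zpowers_le.2 (show g * n ∈ Fx B a from ⟨hB (hT n), by
      simpa [mul_assoc] using inv_mem ha.1.2.2⟩) hs
    have := conj_mem_of_No (h3 hm) (mul_mem (h1 h4.2) ha.2)
    rwa [show m * (s * a * s⁻¹ * a⁻¹ * a) * m⁻¹ = m * s * a * (m * s)⁻¹ by group, ← e,
      inv_inv] at this
  by_cases h' : ∃ U : Subgroup G, B < U ∧ U < M ∧ N ≤ No U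
  · obtain ⟨U₀, hU₀⟩ := h'
    obtain ⟨U, -, hU⟩ := Finite.exists_le_maximal
      (p := fun U : Subgroup G => B < U ∧ U < M ∧ N ≤ No U) hU₀
    obtain ⟨S, hS, hmin⟩ := Set.exists_min_image {S : Subgroup G | B < S ∧ S ≤ M ∧ N ≤ No S}
      (fun S => Nat.card S) (Set.toFinite _) ⟨M, hlt, le_rfl, le_sup_left.trans hM⟩
    obtain ⟨t, ht, h1⟩ : ∃ t ∈ N ⊔ zpowers g, ¬ cjS t S ≤ U := by
      by_contra hc
      push Not at hc
      let J : Subgroup G := ⨆ t : ↥(N ⊔ zpowers g), cjS (t : G) S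
      refine h ⟨J, hS.1.trans_le ((cjS_one S).ge.trans (le_iSup (fun t : ↥(N ⊔ zpowers g) =>
        cjS (t : G) S) 1)), (iSup_le fun t : ↥(N ⊔ zpowers g) => hc t t.2).trans_lt hU.prop.2.1, fun s hs =>
        mem_No_iff_cjS.2 (H49.eq_of_le_of_card_eq ?_ (card_cjS s J))⟩
      rw [cjS, Subgroup.map_iSup]
      exact iSup_le fun t => (cjS_mul s t S).ge.trans (le_iSup (fun t : ↥(N ⊔ zpowers g) =>
        cjS (t : G) S) (⟨s, hs⟩ * t))
    have h2 : cjS t S ≤ M := (cjS_mono t hS.2.1).trans_eq (mem_No_iff_cjS.1 (hM ht))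
    have h3 : B ≤ cjS t S := (mem_No_iff_cjS.1 (hB ht)).ge.trans (cjS_mono t hS.1.le)
    have h4 : N ≤ No (cjS t S) := by
      rw [← cjS_No, ← mem_No_iff_cjS.1 (le_normalizer_of_normal (H := N) (mem_top t))]
      exact cjS_mono t hS.2.2
    have h5 : U ⊔ cjS t S = M := by
      by_contra e
      exact h1 (le_sup_right.trans (hU.le_of_ge ⟨hU.prop.1.trans_le le_sup_left,
        lt_of_le_of_ne (sup_le hU.prop.2.1.le h2) e,
        (le_inf hU.prop.2.2 h4).trans (No_inf_No_le_sup _ _)⟩ le_sup_left))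
    have h6 := H49.card_sup_mul_card_inf (H := U) (K := cjS t S)
      (Or.inl ((hU.prop.2.1.le.trans hMV).trans (le_No_of_ab hab (h2.trans hMV))))
    have h7 := hmin U ⟨hU.prop.1, hU.prop.2.1.le, hU.prop.2.2⟩
    have h8 : Nat.card M * Nat.card B ≤ Nat.card U * Nat.card U := by
      rw [h5, card_cjS] at h6
      exact (Nat.mul_le_mul_left _ (card_le_of_le (le_inf hU.prop.1.le h3))).trans
        (h6.le.trans (Nat.mul_le_mul_left _ h7))
    refine hone fun n => ?_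
    have h9 := (H49.card_mul_le (M := M) (H := M ⊓ Fx B (g * n)) inf_le_left hU.prop.2.1.le).trans
      (Nat.mul_le_mul_left _ (card_le_of_le (key U hU.prop.1.le hU.prop.2.1 hU.prop.2.2 n)))
    by_contra hc
    have := H49.card_pos' U
    nlinarith
  obtain ⟨n₀, hn₀, h1⟩ := hP B M hlt hMV (le_sup_left.trans hB)
  have h2 : M ⊓ Fx B n₀ ≤ B := by
    refine ((le_inf hBM (le_Fx (hB (mem_sup_left hn₀)))).eq_or_lt.resolve_right fun e =>
      h' ⟨_, e, lt_of_le_of_ne inf_le_left fun e' => h1 (inf_eq_left.1 e'), fun m hm =>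
        mem_No_iff_cjS.2 (H49.eq_of_le_of_card_eq ?_ (card_cjS m _))⟩).ge
    rintro _ ⟨a, ha, rfl⟩
    have h3 : m * a * m⁻¹ ∈ M := conj_mem_of_No (hM (mem_sup_left hm)) ha.1
    refine ⟨h3, le_No_of_ab hab (hBM.trans hMV) (hMV h3), ?_⟩
    have h4 := mem_Ce.1 (hN (commutator_mem_commutator (inv_mem hn₀) (inv_mem hm))) a⁻¹
      (inv_mem (hMV ha.1))
    have h5 := conj_mem_of_No (hB (mem_sup_left hm)) ha.2.2
    rw [commutatorElement_def, inv_inv, inv_inv] at h4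
    change m * a * m⁻¹ * n₀ * (m * a * m⁻¹)⁻¹ * n₀⁻¹ ∈ B
    rwa [show m * a * m⁻¹ * n₀ * (m * a * m⁻¹)⁻¹ * n₀⁻¹ =
        m * a * n₀ * (n₀⁻¹ * m⁻¹ * n₀ * m * a⁻¹) * m⁻¹ * n₀⁻¹ by group, ← h4,
      show m * a * n₀ * (a⁻¹ * (n₀⁻¹ * m⁻¹ * n₀ * m)) * m⁻¹ * n₀⁻¹ =
        m * (a * n₀ * a⁻¹ * n₀⁻¹) * m⁻¹ by group]
  rw [Finset.prod_pow, sq]
  nth_rw 2 [← Equiv.prod_comp (Equiv.mulRight (⟨n₀, hn₀⟩ : N))]
  rw [← Finset.prod_mul_distrib, ← Finset.card_univ, ← Finset.prod_const]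
  refine Finset.prod_le_prod' fun n _ => (H49.card_mul_le (M := M) inf_le_left inf_le_left).trans
    (Nat.mul_le_mul_left _ (card_le_of_le fun a ha => h2 ⟨ha.1.1, ha.1.2.1, ?_⟩))
  have := conj_mem_of_No' (hB (hT n)) (mul_mem (inv_mem ha.1.2.2) ha.2.2.2)
  simp only [Equiv.coe_mulRight, coe_mul] at this
  rwa [show (g * n)⁻¹ * ((a * (g * n) * a⁻¹ * (g * n)⁻¹)⁻¹ * (a * (g * (n * n₀)) * a⁻¹ *
    (g * (n * n₀))⁻¹)) * (g * n) = a * n₀ * a⁻¹ * n₀⁻¹ by group] at this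

variable {p : ℕ} [hp : Fact p.Prime]

theorem le_Ce_of_le_sup [V.Normal] (hmin : ∀ M : Subgroup G, M.Normal → M ≤ V → M = ⊥ ∨ M = V)
    (hV : IsPGroup p V) {T P : Subgroup G} [T.Normal] (hP : IsPGroup p P) (h : T ≤ Ce V ⊔ P) :
    T ≤ Ce V := by
  by_cases h0 : V = ⊥
  · simp [h0]
  have h1 := H1.commutator_lt_of_pgroup hV hP le_normalizer_of_normal h0
  have h2 : ⁅T, V⁆ ≤ ⁅V, P⁆ := commutator_le.2 fun t ht v hv => by
    obtain ⟨c, hc, s, hs, rfl⟩ := mem_sup_of_le_No (le_normalizer_of_normal.trans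
      (No_le_No_Ce V)) (h ht)
    have := mem_Ce.1 hc _ ((inferInstance : V.Normal).conj_mem v hv s)
    rw [commutator_comm, commutatorElement_def,
      show c * s * v * (c * s)⁻¹ * v⁻¹ = c * (s * v * s⁻¹) * c⁻¹ * v⁻¹ by group, ← this]
    simpa [commutatorElement_def] using commutator_mem_commutator hs hv
  exact commutator_eq_bot_iff_le_centralizer.1
    ((hmin _ inferInstance (h2.trans h1.le)).resolve_right (h2.trans_lt h1).ne)

/-- Average fixed point space on a non-central minimal normal subgroup of a solvable group. -/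
theorem prod_le {H : Type*} [Group H] [Fintype H] (f : H →* G) (hf : Function.Surjective f)
    (hs : Group.IsSolvable G) [V.Normal]
    (hmin : ∀ M : Subgroup G, M.Normal → M ≤ V → M = ⊥ ∨ M = V) (hV : IsPGroup p V)
    (hab : V ≤ Ce V) (hne : Ce V ≠ ⊤) :
    ∏ h : H, Nat.card ↥(V ⊓ centralizer {f h}) ^ 2 ≤ Nat.card V ^ Fintype.card H := by
  have := Fintype.ofFinite G
  obtain ⟨N, -, hN⟩ := H30.exists_chief_above (H := ⊤) (H49.normalIn_top_iff.2
    (inferInstance : (Ce V).Normal)) (H49.NormalIn.refl ⊤) (lt_top_iff_ne_top.2 hne)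
  have := H49.normalIn_top_iff.1 hN.nK
  have := Fintype.ofFinite N
  have h1 := hN.der_le_of_solvable inferInstance
  obtain ⟨r, hr, Q, hQ, h2⟩ := hN.exists_sylow h1
  have : Fact r.Prime := ⟨hr⟩
  have hQr := (H49.isPi_singleton_iff hr).1 hQ.2.1
  have hrp : r ≠ p := by
    rintro rfl
    exact hN.lt.not_ge (le_Ce_of_le_sup hmin hV hQr (by rw [sup_comm, h2]))
  have h3 : V ⊓ Ce N = ⊥ := (hmin _ inferInstance inf_le_left).resolve_right fun e =>
    hN.lt.not_ge (le_Ce_comm.1 (inf_eq_left.1 e))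
  have h4 := fun x => coset_le hab h1 (fun B M a b c => by
    by_contra hc
    push Not at hc
    refine a.not_ge fun m hm => ?_
    obtain ⟨y, hy, e⟩ := H1.coset_fixed Q B (hQ.1.trans c) (IsPGroup.coprime_card_of_ne r p hrp _ _
      hQr (hV.to_le (a.le.trans b))) (Or.inl inferInstance) m
      fun q hq => by simpa using (hc q (hQ.1 hq) (inv_mem hm)).2
    have h5 : m * y ∈ V := mul_mem (b hm) (b (a.le hy))
    have : m * y = 1 := mem_bot.1 (h3.le ⟨h5, by
      rw [← h2, Ce_sup]; exact ⟨e, le_Ce_comm.1 le_rfl h5⟩⟩)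
    rw [eq_inv_of_mul_eq_one_left this]
    exact inv_mem hy) x _ ⊥ V rfl bot_le le_rfl le_normalizer_of_normal le_normalizer_of_normal
  simp only [Fx_bot, card_bot, mul_one] at h4
  refine (Nat.pow_le_pow_iff_left (Fintype.card_ne_zero (α := N))).1 ?_
  rw [← pow_mul, mul_comm, pow_mul, ← Finset.card_univ (α := H), ← Finset.prod_const]
  refine le_trans (le_of_eq ?_) (Finset.prod_le_prod' fun h _ => h4 (f h))
  rw [Finset.prod_comm, ← Finset.card_univ, ← Finset.prod_const]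
  refine Finset.prod_congr rfl fun n _ => ?_
  obtain ⟨s, hs⟩ := hf n
  rw [← Equiv.prod_comp (Equiv.mulRight s)]
  simp [hs]

end Cfsg.Agent.H86.Avg
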