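import Cfsg.Agent.H86.OW2
import Cfsg.Agent.S0058

/-! The Okuyama–Wajima extension theorem. -/

set_option autoImplicit false
set_option linter.unusedSectionVars false

namespace Cfsg.Agent.H86.OW

open Cfsg Cfsg.Agent.H5 Cfsg.Agent.H89 Subgroup ComplexConjugate
open Cfsg.Agent.H87 hiding cj stab
open scoped commutatorElement

theorem sum_stab_eq {G : Type*} [Group G] [Fintype G] (N : Subgroup G) [Fintype N]
    (hN : _root_.commutator G ≤ N) {η : G → ℂ} (hη : IsIrrCharacter G η)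
    (h : ∀ lam ∈ homTriv N, (∀ x, (lam x : ℂ) * η x = η x) → lam = 1) :
    (Nat.card (homTriv N) : ℂ) * Nat.card N / Nat.card G *
      classInner (fun n : N => η n) (fun n : N => η n) = 1 := by
  classical
  have := Fintype.ofFinite (homTriv N)
  have hn : N.Normal := ⟨fun n hn g => by
    simpa [commutatorElement_def] using mul_mem (hN (commutator_mem_commutator (mem_top g) (mem_top n))) hn⟩
  have h1 : ∑ lam : homTriv N, classInner (fun x => (lam.1 x : ℂ) * η x) η = 1 := by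
    rw [Finset.sum_eq_single 1 (fun lam _ hl => classInner_irr_ne (H30.isIrr_hom_mul _ hη) hη
      fun e => hl (Subtype.ext (h _ lam.2 (congrFun e)))) (by simp)]
    simpa using classInner_irr_self hη
  have h2 : ∀ g : G, ∑ lam : homTriv N, (lam.1 g : ℂ) =
      if g ∈ N then (Nat.card (homTriv N) : ℂ) else 0 := fun g => by
    rw [sum_eq_of_mul Finset.univ (by simp) _ (by simp), Nat.card_eq_fintype_card]
    refine if_congr ⟨fun H => by_contra fun hg => ?_, fun hg lam _ => by simp [lam.2 g hg]⟩ rfl rfl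
    let _ : CommGroup (G ⧸ N) := { (inferInstance : Group (G ⧸ N)) with
      mul_comm := (Normal.quotient_commutative_iff_commutator_le.2 hN).is_comm.comm }
    obtain ⟨φ, hφ⟩ := CommGroup.exists_apply_ne_one_of_hasEnoughRootsOfUnity (G ⧸ N) ℂ
      (a := g) fun e => hg ((QuotientGroup.eq_one_iff g).1 e)
    exact hφ (Units.ext (H ((homTrivEquiv N).symm φ) (Finset.mem_univ _)))
  simp only [classInner, mul_assoc] at h1 ⊢
  rw [← Finset.mul_sum, Finset.sum_comm] at h1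
  simp only [← Finset.sum_mul, h2, ite_mul, zero_mul] at h1
  rw [← Finset.sum_filter, Finset.sum_subtype (p := (· ∈ N)) _ (by simp), ← Finset.mul_sum] at h1
  rw [← h1]
  have := natCard_ne_zero (G := N)
  field_simp

variable {Γ : Type*} [Group Γ] [Finite Γ] {K X Y A B C Q : Subgroup Γ} {p : ℕ}

theorem isIrr_res_iff (h : C ≤ B) (hc : ⁅B, B⁆ ≤ C) (η : IrrCharacter B) :
    IsIrrCharacter C (fun c => η.1 (inclusion h c)) ↔ ∀ lam : B →* ℂˣ,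
      (∀ x : B, (x : Γ) ∈ C → lam x = 1) → (∀ x, (lam x : ℂ) * η.1 x = η.1 x) → lam = 1 := by
  refine ⟨fun H lam h1 h2 => MonoidHom.ext fun g => ?_, fun H => ?_⟩
  · have hr : Rs η.1 (⟨_, H⟩ : IrrCharacter C).1 := ⟨h, fun _ => rfl⟩
    obtain ⟨k, hk, h0⟩ := hr.exists_ne_zero (mem_No_of_conj' fun x hx y hy => by
      simpa [commutatorElement_def] using mul_mem (hc (commutator_mem_commutator hx (h hy))) hy) g
    have := (mul_left_eq_self₀.1 (h2 (k * g))).resolve_right h0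
    rwa [map_mul, h1 k hk, one_mul, Units.val_eq_one] at this
  · have := Fintype.ofFinite B
    have := Fintype.ofFinite C
    have := Fintype.ofFinite (C.subgroupOf B)
    have h1 := sum_stab_eq _ (commutator_le_subgroupOf hc) η.2 H
    have h2 := sum_stab_eq _ (commutator_le_subgroupOf hc) isIrrCharacter_one fun lam _ h =>
      MonoidHom.ext fun x => Units.ext (by simpa using h x)
    rw [classInner_irr_self isIrrCharacter_one, mul_one] at h2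
    rw [h2, one_mul, ← classInner_comp_equiv (subgroupOfEquivOfLe h).symm] at h1
    exact isIrr_of_classInner_self_eq_one (isCharacter_comp (isCharacter_of_isIrr η.2) _) h1
where
  mem_No_of_conj' {X Y : Subgroup Γ} (h : ∀ x ∈ X, ∀ y ∈ Y, x * y * x⁻¹ ∈ Y) : X ≤ No Y :=
    fun x hx => mem_normalizer_iff.2 fun y => ⟨h x hx y, fun hy => by
      simpa [mul_assoc] using h x⁻¹ (inv_mem hx) _ hy⟩

theorem exists_hom_ext {M : Type*} [CommGroup M] (hY : Y = K ⊔ B) (hB : B ≤ No K) (lam : B →* M)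
    (h : ∀ x : B, (x : Γ) ∈ K → lam x = 1) : ∃ μ : Y →* M, (∀ x : Y, (x : Γ) ∈ K → μ x = 1) ∧
      ∀ (x : Y) (b : B), (x : Γ) = b → μ x = lam b := by
  subst hY
  have h1 : ∀ x : (K ⊔ B : Subgroup Γ), ∃ b : B, (x : Γ) * (b : Γ)⁻¹ ∈ K := fun x => by
    obtain ⟨k, hk, b, hb, e⟩ := exists_mul_of_mem_sup hB x.2
    exact ⟨⟨b, hb⟩, by simpa [← e]⟩
  choose f hf using h1
  have h2 : ∀ (x : (K ⊔ B : Subgroup Γ)) (b : B), (x : Γ) * (b : Γ)⁻¹ ∈ K → lam (f x) = lam b :=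
    fun x b hb => by
      have := h (f x * b⁻¹) (by simpa [mul_assoc] using mul_mem (inv_mem (hf x)) hb)
      rwa [map_mul, map_inv, mul_inv_eq_one] at this
  refine ⟨MonoidHom.mk' (fun x => lam (f x)) fun x y => ?_, fun x hx => ?_, fun x b e => ?_⟩
  · rw [← map_mul]
    refine h2 _ _ ?_
    convert mul_mem (hf x) (conj_mem_of_No (hB (f x).2) (hf y)) using 1
    simp [mul_assoc]
  · exact (h2 x 1 (by simpa)).trans (map_one _)
  · exact h2 x b (by simp [e])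

theorem rs_of_isIrr (h : K ≤ X) {χ : X → ℂ} {θ : IrrCharacter K}
    (h1 : IsIrrCharacter K fun k => χ (inclusion h k)) (h2 : Ov χ θ.1) : Rs χ θ.1 := by
  have hr : Rs χ (⟨_, h1⟩ : IrrCharacter K).1 := ⟨h, fun _ => rfl⟩
  rwa [hr.eq_of_ov h2] at hr

theorem mlt_mul_mul {G H : Type*} [Group G] [Group H] [Finite G] [Finite H] (j : H →* G)
    (μ : G →* ℂˣ) (χ : G → ℂ) (ξ : H → ℂ) :
    mlt j (fun g => μ g * χ g) (fun h => μ (j h) * ξ h) = mlt j χ ξ := by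
  unfold mlt classInner
  congr 3
  refine Finset.sum_congr rfl fun h _ => ?_
  have := Fintype.ofFinite G
  have := H6.conj_mul_self_hom (μ := μ) (j h)
  rw [map_mul]
  linear_combination χ (j h) * conj (ξ h) * this

theorem inf_eq_bot_of_not_dvd [Fact p.Prime] (hQ : IsPGroup p Q) (hK : ¬ p ∣ Nat.card K) :
    (Nat.card K).Coprime (Nat.card Q) := by
  obtain ⟨n, hn⟩ := hQ.exists_card_eq
  rw [hn]
  exact ((Nat.Prime.coprime_iff_not_dvd Fact.out).2 hK).symm.pow_right n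

theorem comm_sup_le (hB : B ≤ No K) (h : ⁅B, B⁆ ≤ K) : ⁅K ⊔ B, K ⊔ B⁆ ≤ K :=
  commutator_le.2 fun x hx y hy => by
    obtain ⟨k, hk, b, hb, rfl⟩ := exists_mul_of_mem_sup hB hx
    obtain ⟨k', hk', b', hb', rfl⟩ := exists_mul_of_mem_sup hB hy
    refine comm_mem (g := b') (mul_mem (le_normalizer hk) (hB hb))
      ((comm_mul_iff (le_normalizer hk) ?_ b).2 (h (commutator_mem_commutator hb hb'))) (by simpa)
    simpa [mul_assoc] using mul_mem hk (conj_mem_of_No (hB hb') (inv_mem hk))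

theorem cf {G : Type*} [Group G] (χ : IrrCharacter G) : IsClassFunction G χ.1 :=
  isClassFunction_of_isCharacter (isCharacter_of_isIrr χ.2)

theorem ow_cyclic [hp : Fact p.Prime] (hQ : IsPGroup p Q) (hKA : ¬ p ∣ Nat.card (K ⊔ A : Subgroup Γ))
    (hQK : Q ≤ No K) (hAK : A ≤ No K) (hAQ : A ≤ No Q) (hC : C = K ⊓ Ce Q) (hCK : C ≤ K)
    (hCA : C ≤ A) (hab : ⁅A, A⁆ ≤ C) {a : Γ} (ha : A = A ⊓ Ce Q ⊔ zpowers a)
    {θ : IrrCharacter K} (hθ : SInv Q K θ.1) {φ : IrrCharacter C}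
    (hφ : (mlt (inclusion hCK) θ.1 φ.1 : ZMod p) ≠ 0) : Ext (K ⊔ A) θ.1 ↔ Ext A φ.1 := by
  obtain ⟨B, hB⟩ : ∃ B, B = A ⊓ Ce Q := ⟨_, rfl⟩
  obtain ⟨Y, hY⟩ : ∃ Y, Y = K ⊔ B := ⟨_, rfl⟩
  rw [← hB] at ha
  have hBA : B ≤ A := hB ▸ inf_le_left
  have hBQ : B ≤ Ce Q := hB ▸ inf_le_right
  have hKY : K ≤ Y := hY ▸ le_sup_left
  have hBY : B ≤ Y := hY ▸ le_sup_right
  have hCQ : C ≤ Ce Q := hC ▸ inf_le_right
  have hCB : C ≤ B := hB ▸ le_inf hCA hCQ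
  have hYA : Y ≤ K ⊔ A := hY ▸ sup_le_sup_left hBA K
  have hpY : ¬ p ∣ Nat.card Y := fun h => hKA (h.trans (card_dvd_of_le hYA))
  have hpK : ¬ p ∣ Nat.card K := fun h => hpY (h.trans (card_dvd_of_le hKY))
  have hpB : ¬ p ∣ Nat.card B := fun h => hpY (h.trans (card_dvd_of_le hBY))
  have hQB : Q ≤ No B := (le_Ce_comm.1 hBQ).trans (Ce_le_No _)
  have hQY : Q ≤ No Y := hY ▸ le_normalizer_sup hQK hQB
  have hAB : A ≤ No B := hB ▸ le_normalizer_inf le_normalizer (hAQ.trans (No_le_No_Ce Q))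
  have hAY : A ≤ No Y := hY ▸ le_normalizer_sup hAK hAB
  have hYK : Y ≤ No K := hYA.trans (sup_le le_normalizer hAK)
  have hdec : ∀ x ∈ Y, ∃ k ∈ K, ∃ b ∈ B, k * b = x := fun x hx =>
    exists_mul_of_mem_sup (hBA.trans hAK) (hY ▸ hx)
  have hYB : B = Y ⊓ Ce Q := le_antisymm (le_inf hBY hBQ) fun x hx => by
    obtain ⟨k, hk, b, hb, rfl⟩ := hdec x hx.1
    exact mul_mem (hCB (hC ▸ ⟨hk, ((Ce Q).mul_mem_cancel_right (hBQ hb)).1 hx.2⟩)) hb
  have hcB : ⁅B, B⁆ ≤ C := (commutator_mono hBA hBA).trans hab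
  have hcY : ⁅Y, Y⁆ ≤ K := hY ▸ comm_sup_le (hBA.trans hAK) (hcB.trans hCK)
  have hQc : ∀ (μ : Y →* ℂˣ), (∀ x : Y, (x : Γ) ∈ K → μ x = 1) → ∀ {χ : Y → ℂ}, SInv Q Y χ →
      SInv Q Y fun x => μ x * χ x := fun μ hμ χ hχ q hq x x' e => by
    obtain ⟨k, hk, b, hb, e'⟩ := hdec x x.2
    have h1 := hμ (x' * x⁻¹) (by
      rw [coe_mul, coe_inv, e]
      refine comm_mem (g := b) (hQK hq) ?_ (by simpa [← e'])
      rw [mem_Ce.1 (hBQ hb) q hq]; simp)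
    rw [map_mul, map_inv, mul_inv_eq_one] at h1
    simp only [h1, hχ q hq x x' e]
  have c1 := gcorr_pgroup hp.out Q hQ Y hQY (inf_eq_bot_of_not_dvd hQ hpY) B hYB hBY
  have c2 := gcorr_pgroup hp.out Q hQ K hQK (inf_eq_bot_of_not_dvd hQ hpK) C hC hCK
  have k1 : ∀ (χ : IrrCharacter Y) (ξ : IrrCharacter B), SInv Q Y χ.1 →
      (mlt (inclusion hBY) χ.1 ξ.1 : ZMod p) ≠ 0 →
      (IsIrrCharacter K (fun k => χ.1 (inclusion hKY k)) ↔
        IsIrrCharacter C fun c => ξ.1 (inclusion hCB c)) := fun χ ξ h1 h2 => by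
    rw [isIrr_res_iff hKY hcY, isIrr_res_iff hCB hcB]
    refine ⟨fun H lam a1 a2 => ?_, fun H μ a1 a2 => ?_⟩
    · obtain ⟨μ, a3, a4⟩ := exists_hom_ext hY (hBA.trans hAK) lam fun x hx =>
        a1 x (hC ▸ ⟨hx, hBQ x.2⟩)
      have a5 := mlt_mul_mul (inclusion hBY) μ χ.1 ξ.1
      rw [show (fun h => (μ (inclusion hBY h) : ℂ) * ξ.1 h) = ξ.1 from
        funext fun b => by rw [a4 _ b rfl, a2]] at a5
      have a6 := c1.inj ⟨_, H30.isIrr_hom_mul μ χ.2⟩ χ (hQc μ a3 h1) h1 ξ (a5 ▸ h2) h2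
      have a7 := H μ a3 (congrFun (congrArg Subtype.val a6))
      exact MonoidHom.ext fun b => by rw [← a4 (inclusion hBY b) b rfl, a7]; rfl
    · have a5 := mlt_mul_mul (inclusion hBY) μ χ.1 ξ.1
      rw [show (fun g => (μ g : ℂ) * χ.1 g) = χ.1 from funext a2] at a5
      have a6 := c1.unique h1 (β := ⟨_, H30.isIrr_hom_mul (μ.comp (inclusion hBY)) ξ.2⟩)
        (a5 ▸ h2) h2
      have a7 := H (μ.comp (inclusion hBY)) (fun x hx => a1 _ (hCK hx))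
        (congrFun (congrArg Subtype.val a6))
      exact MonoidHom.ext (hom_eq_one hY.le hKY hBY μ a1 fun x hx => DFunLike.congr_fun a7 ⟨x, hx⟩)
  have k2 : ∀ (χ : IrrCharacter Y) (ξ : IrrCharacter B), SInv Q Y χ.1 →
      (mlt (inclusion hBY) χ.1 ξ.1 : ZMod p) ≠ 0 → ∀ (θ : IrrCharacter K) (φ : IrrCharacter C),
      SInv Q K θ.1 → (mlt (inclusion hCK) θ.1 φ.1 : ZMod p) ≠ 0 → Ov χ.1 θ.1 → Ov ξ.1 φ.1 :=
    fun χ ξ h1 h2 θ φ h3 h4 h5 => ⟨hCB, fun h6 => by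
      have := mlt_mul_mlt_eq hp.out hQ hQY hQK hKY hBY hCK hCB hCQ c1 c2 h1 h3 h2 h4
      rw [h6, Nat.cast_zero, mul_zero] at this
      exact mul_ne_zero (mlt_cast_ne_zero hKY hYK hpY h5.2) h4 this.symm⟩
  have k3 := (NormalMod.of_le_normalizer (G := Y) hAQ).step_iff hAY hAB hBY c1
  have haA : a ∈ A := ha.ge (le_sup_right (a := B) (mem_zpowers a))
  have hcop : (K.relIndex Y).Coprime (Nat.card Q) :=
    (inf_eq_bot_of_not_dvd hQ hpY).coprime_dvd_left (relIndex_dvd_card K Y)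
  refine ⟨fun ⟨τ, hτ⟩ => ?_, fun ⟨σ, hσ⟩ => ?_⟩
  · obtain ⟨χ, h1, h2⟩ := hτ.exists_res hKY hYA
    have h3 : SInv A Y χ.1 := h1.sInv ((sInv_self (cf τ)).mono le_sup_right)
    obtain ⟨χ₀, h4, h5⟩ := exists_sInv_over_abelian hQY hQK hKY hcY hcop θ hθ
    obtain ⟨μ, h6, h7⟩ := exists_hom_mul_of_mlt (inclusion hKY) (inclusion_injective _)
      (by rw [inclusion_range]; exact commutator_le_subgroupOf hcY) h4 h2.ov.2
    have h8 : SInv Q Y χ.1 := h7 ▸ hQc μ (fun x hx => h6 ⟨x, hx⟩) h5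
    obtain ⟨ξ, h9⟩ := c1.exists_ne_zero hp.out χ h8
    obtain ⟨σ, hσ⟩ := ext_zpowers (θ := ξ) ⟨hAB haA, (k3 χ h8 ξ h9).1 h3 a haA⟩
    rw [ha]
    exact ⟨σ, hσ.trans (rs_of_isIrr hCB ((k1 χ ξ h8 h9).1 (h2.isIrr _))
      (k2 χ ξ h8 h9 θ φ hθ hφ h2.ov))⟩
  · obtain ⟨ξ, h1, h2⟩ := hσ.exists_res hCB hBA
    obtain ⟨χ, h8, h9⟩ := c1.surj ξ
    have := (normal_subgroupOf_iff_le_normalizer hKY).2 hYK
    obtain ⟨θ', h3, h4⟩ := exists_sInv_under hQY hQK hKY hcop (Or.inl (by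
      have := hQ.isNilpotent
      infer_instance)) χ h8
    obtain ⟨φ', h5⟩ := c2.exists_ne_zero hp.out θ' h4
    obtain rfl := h2.eq_of_ov (k2 χ ξ h8 h9 θ' φ' h4 h5 ⟨hKY, h3⟩)
    obtain rfl := c2.inj θ θ' hθ h4 φ hφ h5
    obtain ⟨τ, hτ⟩ := ext_zpowers (θ := χ) ⟨hAY haA, (k3 χ h8 ξ h9).2
      (h1.sInv (sInv_self (cf σ))) a haA⟩
    rw [ha, ← sup_assoc, ← hY]
    exact ⟨τ, hτ.trans (rs_of_isIrr hKY ((k1 χ ξ h8 h9).2 (h2.isIrr _)) ⟨hKY, h3⟩)⟩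

theorem exists_fixed_not_mem {Q : Type*} [Group Q] [Finite Q] (R : Subgroup (MulAut Q))
    (hR : ∀ a ∈ R, ∀ b ∈ R, a * b = b * a) (hc : ¬ IsCyclic R)
    (hcop : (Nat.card R).Coprime (Nat.card Q)) {T : Subgroup Q} (hT : T ≠ ⊤) :
    ∃ a ∈ R, a ≠ 1 ∧ ∃ q, a q = q ∧ q ∉ T := by
  by_contra h
  push Not at h
  let inl : Q →* Q ⋊[R.subtype] R := SemidirectProduct.inl
  let inr : R →* Q ⋊[R.subtype] R := SemidirectProduct.inr
  have : Finite (Q ⋊[R.subtype] R) := Finite.of_equiv _ SemidirectProduct.equivProd.symm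
  have e1 := MonoidHom.ofInjective (f := inr) SemidirectProduct.inr_injective
  have e2 := MonoidHom.ofInjective (f := inl) SemidirectProduct.inl_injective
  have : IsMulCommutative inr.range := .of_setLike_mul_comm (by
    rintro _ ⟨a, rfl⟩ _ ⟨b, rfl⟩
    rw [← map_mul, ← map_mul, show a * b = b * a from Subtype.ext (hR _ a.2 _ b.2)])
  have hn : inl.range.Normal := by
    rw [SemidirectProduct.range_inl_eq_ker_rightHom]; infer_instance
  have h1 := S0058.result inr.range inl.range (fun h => hc (isCyclic_of_surjective _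
    e1.symm.surjective)) le_normalizer_of_normal
    (by rwa [← Nat.card_congr e1.toEquiv, ← Nat.card_congr e2.toEquiv])
  have h2 : inl.range ≤ T.map inl := h1.ge.trans (iSup₂_le (by
    rintro _ ⟨⟨a, rfl⟩, ha⟩ _ ⟨⟨q, rfl⟩, hq⟩
    refine mem_map_of_mem _ (h a a.2 (fun e => ha (by rw [show a = 1 from Subtype.ext e, map_one]))
      q ?_)
    simpa [inl, inr] using congrArg SemidirectProduct.left (hq _ rfl)))
  exact hT (eq_top_iff.2 fun q _ =>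
    (mem_map_iff_mem SemidirectProduct.inl_injective).1 (h2 ⟨q, rfl⟩))

/-- The Okuyama–Wajima theorem. -/
theorem ow [hp : Fact p.Prime] (n : ℕ) : ∀ {K Q A C : Subgroup Γ}, Nat.card Q = n → IsPGroup p Q →
    ¬ p ∣ Nat.card (K ⊔ A : Subgroup Γ) → Q ≤ No K → A ≤ No K → A ≤ No Q → C = K ⊓ Ce Q →
    ∀ hCK : C ≤ K, C ≤ A → ⁅A, A⁆ ≤ C → ∀ {θ : IrrCharacter K}, SInv Q K θ.1 →
    ∀ {φ : IrrCharacter C}, (mlt (inclusion hCK) θ.1 φ.1 : ZMod p) ≠ 0 →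
    (Ext (K ⊔ A) θ.1 ↔ Ext A φ.1) := by
  induction n using Nat.strong_induction_on with
  | _ n ih =>
  intro K Q A C hn hQ hKA hQK hAK hAQ hC hCK hCA hab θ hθ φ hφ
  have hCQ : C ≤ Ce Q := hC ▸ inf_le_right
  have hker : ∀ a : A, actHom A Q hAQ a = 1 ↔ (a : Γ) ∈ Ce Q := fun a => by
    rw [← map_one (actHom A Q hAQ), actHom_eq_iff, mem_Ce]
    exact forall₂_congr fun q _ => by
      rw [mul_inv_eq_iff_eq_mul, eq_comm]; simp
  by_cases hcyc : IsCyclic (actHom A Q hAQ).range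
  · obtain ⟨⟨_, a, rfl⟩, ha⟩ := hcyc.exists_generator
    refine ow_cyclic hQ hKA hQK hAK hAQ hC hCK hCA hab (a := a) (le_antisymm (fun x hx => ?_)
      (sup_le inf_le_left (zpowers_le.2 a.2))) hθ hφ
    obtain ⟨m, hm⟩ := mem_zpowers_iff.1 (ha ⟨_, ⟨x, hx⟩, rfl⟩)
    have h1 : actHom A Q hAQ (⟨x, hx⟩ * (a ^ m)⁻¹) = 1 := by
      rw [map_mul, map_inv, map_zpow, mul_inv_eq_one]
      exact (congrArg Subtype.val hm).symm
    simpa using mul_mem (mem_sup_left (T := zpowers (a : Γ)) (S := A ⊓ Ce Q)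
      ⟨(⟨x, hx⟩ * (a ^ m)⁻¹ : A).2, (hker _).1 h1⟩) (mem_sup_right (zpow_mem_zpowers (a : Γ) m))
  have hQ0 : Q ≠ ⊥ := by
    rintro rfl
    exact hcyc (isCyclic_of_subsingleton (α := (actHom A ⊥ hAQ).range))
  have hsol : Group.IsSolvable Q := by
    have := hQ.isNilpotent
    infer_instance
  obtain ⟨Q₁, -, hm⟩ := Finite.exists_le_maximal (p := fun X => X < Q ∧ ⁅Q, Q⁆ ≤ X ∧ A ≤ No X)
    ⟨H1.commutator_lt_of_solvable hsol hQ0, le_rfl, H1.le_normalizer_commutator hAQ hAQ⟩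
  obtain ⟨h1, h2, h3⟩ := hm.prop
  have hpA : ¬ p ∣ Nat.card A := fun h => hKA (h.trans (card_dvd_of_le le_sup_right))
  have hpK : ¬ p ∣ Nat.card K := fun h => hKA (h.trans (card_dvd_of_le le_sup_left))
  obtain ⟨_, ⟨a, rfl⟩, ha, q, hq, hq1⟩ := exists_fixed_not_mem (actHom A Q hAQ).range (by
      rintro _ ⟨a, rfl⟩ _ ⟨b, rfl⟩
      rw [← commutatorElement_eq_one_iff_mul_comm, ← map_commutatorElement, hker]
      exact hCQ (hab (commutator_mem_commutator a.2 b.2))) hcyc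
    ((inf_eq_bot_of_not_dvd hQ hpA).coprime_dvd_left (card_range_dvd_card _))
    (T := Q₁.subgroupOf Q) fun e => h1.not_ge (subgroupOf_eq_top.1 e)
  obtain ⟨Q₂, hQ₂⟩ : ∃ X, X = Q ⊓ Ce (zpowers (a : Γ)) := ⟨_, rfl⟩
  have mQ₂ : ∀ {x}, x ∈ Q₂ ↔ x ∈ Q ∧ a * x = x * a := by
    intro x
    rw [hQ₂, mem_inf, mem_Ce]
    refine and_congr_right fun _ => ⟨fun h => h _ (mem_zpowers _), fun h y hy => ?_⟩
    obtain ⟨m, rfl⟩ := mem_zpowers_iff.1 hy
    exact Commute.zpow_left h m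
  have h4 : Q₂ < Q := lt_of_le_of_ne (fun x hx => (mQ₂.1 hx).1) fun e =>
    ha ((hker a).2 (mem_Ce.2 fun x hx => (mQ₂.1 (e.ge hx)).2.symm))
  have h5 : A ≤ No Q₂ := isIrr_res_iff.mem_No_of_conj' fun x hx y hy => mQ₂.2
    ⟨conj_mem_of_No (hAQ hx) (mQ₂.1 hy).1, by
      have e1 := mem_Ce.1 (hCQ (hab (commutator_mem_commutator (inv_mem hx) a.2))) _
        (conj_mem_of_No (hAQ a.2) (mQ₂.1 hy).1)
      have e2 := (mQ₂.1 hy).2
      rw [commutatorElement_def, e2, mul_inv_cancel_right] at e1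
      calc a * (x * y * x⁻¹) = x * (x⁻¹ * a * x⁻¹⁻¹ * (a : Γ)⁻¹ * (a * y)) * x⁻¹ := by group
        _ = x * (x⁻¹ * a * x⁻¹⁻¹ * (a : Γ)⁻¹ * y) * a * x⁻¹ := by rw [e2]; group
        _ = _ := by rw [← e1]; group⟩
  have h6 : Q₁ ⊔ Q₂ = Q := by
    by_contra e
    have := hm.le_of_ge (y := Q₁ ⊔ Q₂) ⟨lt_of_le_of_ne (sup_le h1.le h4.le) e,
      h2.trans le_sup_left, le_normalizer_sup h3 h5⟩ le_sup_left
    refine hq1 (this (mem_sup_right (mQ₂.2 ⟨q.2, ?_⟩)))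
    exact mul_inv_eq_iff_eq_mul.1 (congrArg Subtype.val hq)
  obtain ⟨K₁, hK₁⟩ : ∃ X, X = K ⊓ Ce Q₁ := ⟨_, rfl⟩
  have hK₁K : K₁ ≤ K := hK₁ ▸ inf_le_left
  have hQQ₁ : Q ≤ No Q₁ := isIrr_res_iff.mem_No_of_conj' fun x hx y hy => by
    simpa [commutatorElement_def] using mul_mem (h2 (commutator_mem_commutator hx (h1.le hy))) hy
  have hN : ∀ {X}, X ≤ No K → X ≤ No Q₁ → X ≤ No K₁ := fun a b =>
    hK₁ ▸ le_normalizer_inf a (b.trans (No_le_No_Ce _))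
  have hC' : C = K₁ ⊓ Ce Q₂ := by rw [hC, hK₁, ← h6, Ce_sup, inf_assoc]
  have hCK₁ : C ≤ K₁ := hC' ▸ inf_le_left
  have c1 := gcorr_pgroup hp.out Q₁ (hQ.to_le h1.le) K (h1.le.trans hQK)
    (inf_eq_bot_of_not_dvd (hQ.to_le h1.le) hpK) K₁ hK₁ hK₁K
  obtain ⟨ξ, hξ⟩ := c1.exists_ne_zero hp.out θ (hθ.mono h1.le)
  have hξQ := ((NormalMod.of_le_normalizer hQQ₁).step_iff hQK (hN hQK hQQ₁) hK₁K c1 θ
    (hθ.mono h1.le) ξ hξ).1 hθ
  have h7 := GCorr.mlt_comp_eq (p := p) (inclusion hK₁K) (inclusion hCK₁) θ (ξ₀ := ξ)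
    (fun ξ' e => by_contra fun e' => e (c1.unique (hθ.mono h1.le) e' hξ)) φ
  have h8 : K ⊔ (K₁ ⊔ A) = K ⊔ A := by rw [← sup_assoc, sup_eq_left.2 hK₁K]
  have i1 := ih _ (hn ▸ H1.card_lt_of_lt h1) (A := K₁ ⊔ A) rfl (hQ.to_le h1.le) (h8 ▸ hKA)
    (h1.le.trans hQK) (sup_le (hK₁K.trans le_normalizer) hAK)
    (sup_le (hK₁.le.trans (inf_le_right.trans (Ce_le_No _))) h3) hK₁ hK₁K le_sup_left
    (comm_sup_le (hN hAK h3) (hab.trans hCK₁)) (hθ.mono h1.le) hξ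
  have i2 := ih _ (hn ▸ H1.card_lt_of_lt h4) rfl (hQ.to_le h4.le)
    (fun h => hKA (h.trans (card_dvd_of_le (sup_le_sup_right hK₁K A))))
    (h4.le.trans (hN hQK hQQ₁)) (hN hAK h3) h5 hC' hCK₁ hCA hab (hξQ.mono h4.le)
    (φ := φ) fun e => hφ (h7.trans (by rw [e, mul_zero]))
  rw [← h8, i1, i2]

end Cfsg.Agent.H86.OW
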