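import Cfsg.Agent.H86.OW3
import Cfsg.Agent.H89.Real2
import Cfsg.Agent.H89.RelDeg
import Cfsg.Agent.H6.RealOdd2
import Cfsg.Prelude.Def_BlockLocal

/-! Counting lemmas for characters over a normal subgroup. -/

set_option autoImplicit false
set_option linter.unusedSectionVars false

namespace Cfsg.Agent.H86.OW

open Cfsg Cfsg.Agent.H5 Cfsg.Agent.H89 Subgroup ComplexConjugate
open Cfsg.Agent.H87 hiding cj stab
open scoped commutatorElement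

theorem card_eq_sum_classes {α Ω : Type*} [Finite α] (s : Setoid Ω) [Fintype (Quotient s)]
    (A : α → Prop) (R : α → Ω → Prop) (hA : ∀ a, A a ↔ ∃ ω, R a ω)
    (h1 : ∀ a ω ω', R a ω → (R a ω' ↔ s ω ω')) :
    Nat.card {a // A a} = ∑ c : Quotient s, Nat.card {a // R a c.out} := by
  rw [← Nat.card_sigma]
  refine (Nat.card_congr (Equiv.ofBijective (fun x => ⟨x.2.1, (hA _).2 ⟨_, x.2.2⟩⟩)
    ⟨?_, fun a => ?_⟩)).symm
  · rintro ⟨c, a, ha⟩ ⟨c', a', ha'⟩ e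
    obtain rfl : a = a' := congrArg Subtype.val e
    obtain rfl : c = c' := Quotient.out_equiv_out.1 ((h1 a _ _ ha).1 ha')
    rfl
  · obtain ⟨ω, h⟩ := (hA a).1 a.2
    exact ⟨⟨⟦ω⟧, a, (h1 _ _ _ h).2 (s.symm (Quotient.mk_out ω))⟩, rfl⟩

theorem card_eq_of_classes {α β Ω : Type*} [Finite α] [Finite β] [Finite Ω] {r : Ω → Ω → Prop}
    (hr : Equivalence r) (A : α → Prop) (B : β → Prop) (R : α → Ω → Prop) (R' : β → Ω → Prop)
    (hA : ∀ a, A a ↔ ∃ ω, R a ω) (hB : ∀ b, B b ↔ ∃ ω, R' b ω)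
    (h1 : ∀ a ω ω', R a ω → (R a ω' ↔ r ω ω')) (h2 : ∀ b ω ω', R' b ω → (R' b ω' ↔ r ω ω'))
    (h : ∀ ω, Nat.card {a // R a ω} = Nat.card {b // R' b ω}) :
    Nat.card {a // A a} = Nat.card {b // B b} := by
  have := Fintype.ofFinite (Quotient ⟨r, hr⟩)
  rw [card_eq_sum_classes ⟨r, hr⟩ A R hA h1, card_eq_sum_classes ⟨r, hr⟩ B R' hB h2]
  exact Finset.sum_congr rfl fun c _ => h _

variable {Γ : Type*} [Group Γ] [Finite Γ] {K X Y S H : Subgroup Γ} {p : ℕ} {g h : Γ}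

theorem cj_symm {θ θ' : K → ℂ} (e : IsConjCharOf K g θ θ') : IsConjCharOf K g⁻¹ θ' θ :=
  fun k k' e' => (e k' k (by rw [e']; group)).symm

theorem cj_trans {θ θ' θ'' : K → ℂ} (hg : g ∈ No K) (e : IsConjCharOf K g θ θ')
    (e' : IsConjCharOf K h θ' θ'') : IsConjCharOf K (h * g) θ θ'' := fun k k' a =>
  (e' ⟨_, conj_mem_of_No hg k.2⟩ k' (by rw [a]; group)).trans (e k _ rfl)

theorem cj_self (χ : IrrCharacter K) (hg : g ∈ K) : IsConjCharOf K g χ.1 χ.1 :=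
  (le_stab_self χ hg).2

theorem cj_eq {θ θ' : K → ℂ} (hg : g ∈ No K) (e : IsConjCharOf K g θ θ') :
    θ = fun k => θ' (cj K g hg k) := funext fun k => (e k _ rfl).symm

theorem exists_cj (hg : g ∈ No K) (θ : IrrCharacter K) :
    ∃ θ' : IrrCharacter K, IsConjCharOf K g θ.1 θ'.1 :=
  ⟨irrAct _ K le_rfl ⟨g, hg⟩ θ, fun _ _ e => irrAct_apply_of_eq le_rfl ⟨g, hg⟩ θ e⟩

theorem cj_unique {θ : K → ℂ} {θ' θ'' : IrrCharacter K} (hg : g ∈ No K)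
    (e : IsConjCharOf K g θ θ'.1) (e' : IsConjCharOf K g θ θ''.1) : θ' = θ'' :=
  Subtype.ext (funext fun k => (e ⟨_, conj_mem_of_No' hg k.2⟩ k (by simp [mul_assoc])).trans
    (e' ⟨_, conj_mem_of_No' hg k.2⟩ k (by simp [mul_assoc])).symm)

theorem cj_deg {θ θ' : K → ℂ} (e : IsConjCharOf K g θ θ') : charDegree θ' = charDegree θ := by
  rw [charDegree, e 1 1 (by simp), charDegree]

theorem cj_mlt {χ χ' : X → ℂ} {θ θ' : K → ℂ} (hX : g ∈ No X) (hK : g ∈ No K) (a : K ≤ X)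
    (e : IsConjCharOf X g χ χ') (e' : IsConjCharOf K g θ θ') :
    mlt (inclusion a) χ' θ' = mlt (inclusion a) χ θ := by
  rw [cj_eq hX e, cj_eq hK e', mlt_comp_equiv _ (cj X g hX) (cj K g hK) fun _ => rfl]

theorem Ov.cj {χ : IrrCharacter X} {θ θ' : K → ℂ} (h : Ov χ.1 θ) (hX : g ∈ X) (hK : g ∈ No K)
    (e : IsConjCharOf K g θ θ') : Ov χ.1 θ' :=
  ⟨h.1, by rw [cj_mlt (le_normalizer hX) hK h.1 (cj_self χ hX) e]; exact h.2⟩

theorem Ov.exists_cj {χ : IrrCharacter X} {θ θ' : IrrCharacter K} (hX : X ≤ No K)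
    (h : Ov χ.1 θ.1) (h' : Ov χ.1 θ'.1) : ∃ g ∈ X, IsConjCharOf K g θ.1 θ'.1 := by
  obtain ⟨g, rfl⟩ := exists_irrAct_eq_of_mlt hX h.1 h.2 h'.2
  exact ⟨g, g.2, fun _ _ e => irrAct_apply_of_eq hX g θ e⟩

theorem Rs.cj {χ χ' : X → ℂ} {θ θ' : K → ℂ} (h : Rs χ θ) (hK : g ∈ No K)
    (e : IsConjCharOf X g χ χ') (e' : IsConjCharOf K g θ θ') : Rs χ' θ' := ⟨h.1, fun k => by
  rw [e' ⟨_, conj_mem_of_No' hK k.2⟩ k (by simp [mul_assoc]), ← h.2]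
  exact e _ _ (by simp [mul_assoc])⟩

theorem sInv_cj {θ θ' : K → ℂ} (h : SInv S K θ) (hS : g ∈ No S) (hK : g ∈ No K)
    (e : IsConjCharOf K g θ θ') : SInv S K θ' := fun s hs k k' a => by
  rw [e ⟨_, conj_mem_of_No' hK k.2⟩ k (by simp [mul_assoc]),
    e ⟨_, conj_mem_of_No' hK k'.2⟩ k' (by simp [mul_assoc])]
  exact h _ (conj_mem_of_No' hS hs) _ _ (by simp [a, mul_assoc])

theorem equiv_cj (hH : H ≤ No K) :
    Equivalence fun θ θ' : IrrCharacter K => ∃ g ∈ H, IsConjCharOf K g θ.1 θ'.1 :=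
  ⟨fun θ => ⟨1, one_mem _, cj_self θ (one_mem _)⟩, fun ⟨g, a, b⟩ => ⟨g⁻¹, inv_mem a, cj_symm b⟩,
    fun ⟨g, a, b⟩ ⟨h, c, d⟩ => ⟨h * g, mul_mem c a, cj_trans (hH a) b d⟩⟩

theorem Ov.trans {χ : IrrCharacter X} {ψ : IrrCharacter Y} {θ : IrrCharacter K} (h : Ov χ.1 ψ.1)
    (h' : Ov ψ.1 θ.1) : Ov χ.1 θ.1 := ⟨h'.1.trans h.1, mlt_incl_ne_zero _ _ _ h.2 h'.2⟩

theorem exists_ov (h : K ≤ X) (χ : IrrCharacter X) : ∃ θ : IrrCharacter K, Ov χ.1 θ.1 :=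
  (exists_irr_under (inclusion h) χ).imp fun _ a => ⟨h, a⟩

theorem Ov.exists_deg {χ : IrrCharacter X} {θ : IrrCharacter K} (h : Ov χ.1 θ.1) (hX : X ≤ No K) :
    ∃ e, e ∣ K.relIndex X ∧ charDegree χ.1 = e * charDegree θ.1 := by
  have := Fintype.ofFinite K
  have := Fintype.ofFinite (K.subgroupOf X)
  have := normal_subgroupOf_of_le_normalizer hX
  have h0 := (mlt_ne_zero_iff _ χ θ).1 h.2
  rw [← classInner_comp_equiv (subgroupOfEquivOfLe h.1)] at h0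
  obtain ⟨e, h1, h2⟩ := H30.exists_degree_eq_mul (K.subgroupOf X)
    (isIrrCharacter_comp_equiv θ.2 (subgroupOfEquivOfLe h.1)) χ.2 h0
  exact ⟨e, h1, H32.charDegree_eq_of_eq (by
    rw [h2, Nat.cast_mul, H32.cast_charDegree_irr, map_one])⟩

theorem Rs.deg {χ : X → ℂ} {θ : K → ℂ} (h : Rs χ θ) : charDegree χ = charDegree θ := by
  rw [charDegree, h.apply (k := 1) rfl, charDegree]

theorem Ov.rs_of_deg {χ : IrrCharacter X} {θ : IrrCharacter K} (h : Ov χ.1 θ.1)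
    (e : charDegree χ.1 = charDegree θ.1) : Rs χ.1 θ.1 := by
  have := Fintype.ofFinite K
  exact ⟨h.1, congrFun (H6.eq_of_constituent_of_degree_eq
    (isCharacter_comp (isCharacter_of_isIrr χ.2) _) θ.2 ((mlt_ne_zero_iff _ χ θ).1 h.2) (by
      rw [map_one, ← H32.cast_charDegree_irr, ← H32.cast_charDegree_irr, e]))⟩

/-- The Clifford correspondence as a count. -/
theorem card_clifford (hK : K ≤ X) (hX : X ≤ No K) (θ : IrrCharacter K) (hY : Y = X ⊓ stab K θ.1)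
    (q q' : ℕ → Prop) (hq : ∀ n, q (Y.relIndex X * n) ↔ q' n) :
    Nat.card {χ : IrrCharacter X // q (charDegree χ.1) ∧ Ov χ.1 θ.1} =
      Nat.card {ψ : IrrCharacter Y // q' (charDegree ψ.1) ∧ Ov ψ.1 θ.1} := by
  subst hY
  have D := cliffData_inf hK hX θ
  have h1 : ∀ (χ : IrrCharacter X) (ψ : IrrCharacter (X ⊓ stab K θ.1 : Subgroup Γ)), Ov ψ.1 θ.1 →
      Ov χ.1 ψ.1 → (q (charDegree χ.1) ↔ q' (charDegree ψ.1)) := fun χ ψ a b => by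
    rw [D.charDegree_eq a.2 b.2, inclusion_range, ← hq, relIndex]
  refine H6.card_eq_of_rel (fun χ ψ => Ov χ.1.1 ψ.1.1) (fun χ => ?_) (fun ψ => ?_)
    (fun χ ψ ψ' a b => Subtype.ext (D.unique_down ψ.2.2.2 ψ'.2.2.2 a.2 b.2))
    fun χ χ' ψ a b => Subtype.ext (D.unique_up ψ.2.2.2 a.2 b.2)
  · obtain ⟨ψ, a, b⟩ := exists_clifford_down hK χ.2.2.2
    exact ⟨⟨ψ, (h1 _ ψ ⟨_, b⟩ ⟨_, a⟩).1 χ.2.1, _, b⟩, _, a⟩
  · obtain ⟨χ, a⟩ := exists_irr_over (inclusion (inf_le_left : X ⊓ stab K θ.1 ≤ X))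
      (inclusion_injective _) ψ.1
    exact ⟨⟨χ, (h1 χ _ ψ.2.2 ⟨_, a⟩).2 ψ.2.1, Ov.trans ⟨_, a⟩ ψ.2.2⟩, _, a⟩

theorem nOv_clifford (hK : K ≤ X) (hX : X ≤ No K) (θ : IrrCharacter K) (hY : Y = X ⊓ stab K θ.1) :
    nOv X θ.1 = nOv Y θ.1 := by
  simpa [nOv] using card_clifford hK hX θ hY (fun _ => True) (fun _ => True) fun _ => Iff.rfl

/-- The number of irreducible characters of `p'`-degree over `θ`. -/
noncomputable def cnt (p : ℕ) (X : Subgroup Γ) (θ : K → ℂ) : ℕ :=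
  Nat.card {χ : IrrCharacter X // ¬ p ∣ charDegree χ.1 ∧ Ov χ.1 θ}

theorem cnt_clifford [hp : Fact p.Prime] (hK : K ≤ X) (hX : X ≤ No K) (θ : IrrCharacter K)
    (hY : Y = X ⊓ stab K θ.1) (h : ¬ p ∣ Y.relIndex X) : cnt p X θ.1 = cnt p Y θ.1 :=
  card_clifford hK hX θ hY (fun n => ¬ p ∣ n) (fun n => ¬ p ∣ n) fun n => by
    simp [hp.out.dvd_mul, h]

theorem exists_sInv_ov [Fact p.Prime] (hS : IsPGroup p S) (hSX : S ≤ X) (hSK : S ≤ No K)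
    (hK : K ≤ X) {χ : IrrCharacter X} (h : ¬ p ∣ charDegree χ.1) :
    ∃ θ : IrrCharacter K, SInv S K θ.1 ∧ Ov χ.1 θ.1 := by
  by_contra H
  push Not at H
  apply h
  rw [← ZMod.natCast_eq_zero_iff, charDegree_congr_sum hS (hSX.trans le_normalizer) hSK hK
    ((sInv_self (cf χ)).mono hSX)]
  refine Finset.sum_eq_zero fun θ hθ => ?_
  rw [show mlt _ _ _ = 0 from by_contra fun e => H θ (by simpa using hθ) ⟨hK, e⟩]
  simp

theorem exists_cj_No [Fact p.Prime] (hS : SylIn p S X) (hX : X ≤ No K) {θ θ' : IrrCharacter K}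
    (h : SInv S K θ.1) (h' : SInv S K θ'.1) (hg : g ∈ X) (e : IsConjCharOf K g θ.1 θ'.1) :
    ∃ n ∈ X ⊓ No S, IsConjCharOf K n θ.1 θ'.1 := by
  have hSK := hS.le.trans hX
  have h1 : SylIn p S (X ⊓ stab K θ'.1) :=
    hS.of_le (le_inf hS.le ((le_stab_iff hSK).2 h')) inf_le_left
  have h2 : SylIn p (cjS g S) (X ⊓ stab K θ'.1) := by
    refine (cjS_of_mem hg ▸ hS.cj g).of_le (fun x hx => ?_) inf_le_left
    have h3 := mem_cjS.1 hx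
    have h4 : x ∈ X := by simpa [mul_assoc] using mul_mem (mul_mem hg (hS.le h3)) (inv_mem hg)
    have h5 := cj_trans (mul_mem (hSK h3) (inv_mem (hX hg)))
      (cj_trans (inv_mem (hX hg)) (cj_symm e) (h _ h3)) e
    rw [show g * (g⁻¹ * x * g * g⁻¹) = x by group] at h5
    exact ⟨h4, hX h4, h5⟩
  obtain ⟨y, hy, e'⟩ := h2.conj h1
  exact ⟨y * g, ⟨mul_mem hy.1 hg, mem_No_iff_cjS.2 (by rw [cjS_mul, ← e'])⟩,
    cj_trans (hX hg) e hy.2.2⟩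

/-- Reduction to the characters of a larger normal subgroup. -/
theorem cnt_eq_of_forall [Fact p.Prime] {L : Subgroup Γ} (hS : SylIn p S X) (hX : X ≤ No K)
    (hKY : K ≤ Y) (hYX : Y ≤ X) (hY : X ⊓ No S ≤ Y) (hLK : L ≤ K) {ν : IrrCharacter L}
    (hν : X ≤ stab L ν.1) (h : ∀ θ : IrrCharacter K, SInv S K θ.1 → cnt p X θ.1 = cnt p Y θ.1) :
    cnt p X ν.1 = cnt p Y ν.1 := by
  have hSY : S ≤ Y := (le_inf hS.le le_normalizer).trans hY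
  have k1 : ∀ {W : Subgroup Γ}, K ≤ W → S ≤ W → W ≤ X → ∀ χ : IrrCharacter W,
      ¬ p ∣ charDegree χ.1 ∧ Ov χ.1 ν.1 ↔ ∃ θ : {θ : IrrCharacter K // SInv S K θ.1 ∧ Ov θ.1 ν.1},
        ¬ p ∣ charDegree χ.1 ∧ Ov χ.1 θ.1.1 := fun {W} a b c χ => by
    refine ⟨fun ⟨h1, h2⟩ => ?_, fun ⟨θ, h1, h2⟩ => ⟨h1, h2.trans θ.2.2⟩⟩
    obtain ⟨θ, h3, h4⟩ := exists_sInv_ov hS.pgp b (hS.le.trans hX) a h1
    obtain ⟨ν', h5⟩ := exists_ov hLK θ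
    obtain ⟨g, h6, h7⟩ := h2.exists_cj ((c.trans hν).trans (stab_le_normalizer _ _)) (h4.trans h5)
    obtain rfl := cj_unique (hν (c h6)).1 (hν (c h6)).2 h7
    exact ⟨⟨θ, h3, h5⟩, h1, h4⟩
  have k2 : ∀ {W : Subgroup Γ}, X ⊓ No S ≤ W → W ≤ X → ∀ (χ : IrrCharacter W)
      (θ θ' : {θ : IrrCharacter K // SInv S K θ.1 ∧ Ov θ.1 ν.1}),
      ¬ p ∣ charDegree χ.1 ∧ Ov χ.1 θ.1.1 → (¬ p ∣ charDegree χ.1 ∧ Ov χ.1 θ'.1.1 ↔
        ∃ g ∈ X ⊓ No S, IsConjCharOf K g θ.1.1 θ'.1.1) := fun {W} a b χ θ θ' h1 => by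
    refine ⟨fun h2 => ?_, fun ⟨g, h2, h3⟩ => ⟨h1.1, h1.2.cj (a h2) (hX h2.1) h3⟩⟩
    obtain ⟨g, h3, h4⟩ := h1.2.exists_cj (b.trans hX) h2.2
    exact exists_cj_No hS hX θ.2.1 θ'.2.1 (b h3) h4
  exact card_eq_of_classes ((equiv_cj (inf_le_left.trans hX)).comap Subtype.val) _ _ _ _
    (k1 (hKY.trans hYX) hS.le le_rfl) (k1 hKY hSY hYX) (k2 inf_le_left le_rfl) (k2 hY hYX)
    fun θ => h _ θ.2.1

end Cfsg.Agent.H86.OW
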