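import Cfsg.Agent.H86.OW4
import Cfsg.Agent.H49.Hall

/-! Determinants of extensions to `KS` and the correspondence `Irr_{p'}(KS) → Irr_{p'}(C_K(S)S)`. -/

set_option autoImplicit false
set_option linter.unusedSectionVars false

namespace Cfsg.Agent.H86.OW

open Cfsg Cfsg.Agent.H5 Cfsg.Agent.H89 Subgroup ComplexConjugate
open Cfsg.Agent.H87 hiding cj stab
open scoped commutatorElement

variable {Γ : Type*} [Group Γ] [Finite Γ] {K X Y S C M M' Z : Subgroup Γ} {p : ℕ} {g : Γ}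

/-- The determinant of a character, extended by zero. -/
noncomputable def dt (ψ : X → ℂ) : Γ → ℂ := ex (detChar ψ)

theorem dt_coe (ψ : X → ℂ) (x : X) : dt ψ x = detChar ψ x := ex_coe _ x

theorem dt_cj {ψ ψ' : IrrCharacter X} (hg : g ∈ No X) (e : IsConjCharOf X g ψ.1 ψ'.1) {x : Γ}
    (hx : x ∈ X) : dt ψ'.1 (g * x * g⁻¹) = dt ψ.1 x := by
  have h1 := cj_eq hg e
  have h2 := H30.detChar_comp_of_irr (isCharacter_of_isIrr ψ'.2) (cj X g hg).toMonoidHom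
    (by exact h1 ▸ ψ.2)
  exact (dt_coe ψ'.1 (cj X g hg ⟨x, hx⟩)).trans ((congrFun h2 ⟨x, hx⟩).symm.trans
    ((congrFun (congrArg detChar h1.symm) _).trans (dt_coe ψ.1 ⟨x, hx⟩).symm))

theorem dt_hom_mul {ψ : IrrCharacter X} {ψ' : X → ℂ} {μ : X →* ℂˣ} (h : ∀ x, ψ' x = μ x * ψ.1 x)
    (x : X) : dt ψ' x = μ x ^ charDegree ψ.1 * dt ψ.1 x := by
  rw [dt_coe, dt_coe, funext h, H30.detChar_hom_mul μ ψ.2 (H32.cast_charDegree_irr ψ).symm]

theorem exists_hom_dt (h : S ≤ X) (ψ : X → ℂ) : ∃ κ : S →* ℂˣ, ∀ s : S, dt ψ s = κ s := by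
  obtain ⟨μ, e⟩ := H30.exists_hom_detChar ψ
  exact ⟨μ.comp (inclusion h), fun s => (dt_coe ψ (inclusion h s)).trans (congrFun e _)⟩

theorem hom_eq_of_pow [hp : Fact p.Prime] (hS : IsPGroup p S) (κ κ' : S →* ℂˣ) {n : ℕ}
    (hn : ¬ p ∣ n) {s : S} (h : (κ s : ℂ) ^ n = κ' s ^ n) : κ s = κ' s := by
  obtain ⟨k, hk⟩ := hS s
  have h1 : (κ s * (κ' s)⁻¹) ^ n = 1 := by
    rw [mul_pow, inv_pow, mul_inv_eq_one]
    exact Units.ext (by simpa using h)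
  have h2 : (κ s * (κ' s)⁻¹) ^ p ^ k = 1 := by
    rw [mul_pow, inv_pow, ← map_pow, ← map_pow, hk, map_one, map_one, mul_inv_cancel]
  have := pow_gcd_eq_one.2 ⟨h1, h2⟩
  rwa [((hp.out.coprime_iff_not_dvd.2 hn).symm.pow_right k).gcd_eq_one, pow_one,
    mul_inv_eq_one] at this

theorem dt_central {lam : Z →* ℂˣ} (hZ : Z ≤ center Γ) (hZX : Z ≤ X) {ψ : IrrCharacter X}
    (h : OverL Z lam X ψ.1) (z : Z) : dt ψ.1 z = lam z ^ charDegree ψ.1 := by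
  have hd : ∀ g ∈ X, ∃ h ∈ X, ∃ z ∈ Z, g = h * z := fun g hg => ⟨g, hg, 1, one_mem _, by simp⟩
  have h1 := isIrrCharacter_comp ψ.2 (MonoidHom.fst X Z) Prod.fst_surjective
  have h2 := H30.detChar_comp_of_irr (isCharacter_of_isIrr ψ.2) _
    (isIrrCharacter_comp ψ.2 _ (mulZ_surj hZ hZX le_rfl hd))
  have h3 := H30.detChar_hom_mul (lam.comp (MonoidHom.snd X Z)) h1
    (d := charDegree ψ.1) (H32.cast_charDegree_irr ψ).symm
  rw [H30.detChar_comp_of_irr (isCharacter_of_isIrr ψ.2) _ h1] at h3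
  rw [show (fun x => ψ.1 (mulZ hZ hZX le_rfl x)) = _ from
    funext fun x => h.apply_mulZ hZ hZX le_rfl x.1 x.2] at h2
  have h4 := congrFun (h2.symm.trans h3) (1, z)
  rw [show (z : Γ) = mulZ hZ hZX le_rfl (1, z) by simp [mulZ_coe], dt_coe, h4]
  simp [(H30.detChar_linear ψ.1).2]

theorem exists_overL (hZ : Z ≤ center Γ) (hZX : Z ≤ X) (ψ : IrrCharacter X) :
    ∃ lam, OverL Z lam X ψ.1 := by
  obtain ⟨θ, h⟩ := exists_irr_under (inclusion hZX) ψ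
  obtain ⟨lam, e⟩ := exists_monoidHom_of_comm
    (fun a b => Subtype.ext (mem_center_iff.1 (hZ b.2) a)) θ.2
  exact ⟨lam, (overL_iff_mlt hZ hZX le_rfl inf_le_left ψ).2 (by rwa [e] at h)⟩

theorem overL_eq {lam lam' : Z →* ℂˣ} {ψ : IrrCharacter X} (h : OverL Z lam X ψ.1)
    (h' : OverL Z lam' X ψ.1) {z : Z} (hz : (z : Γ) ∈ X) : lam z = lam' z :=
  Units.ext (mul_right_cancel₀ (degree_ne_zero ψ.2)
    ((h z 1 ⟨z, hz⟩ (by simp)).symm.trans (h' z 1 ⟨z, hz⟩ (by simp))))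

theorem Rs.overL {lam : Z →* ℂˣ} {ψ : X → ℂ} {θ : K → ℂ} (h : Rs ψ θ) (h' : OverL Z lam X ψ) :
    OverL Z lam K θ := by
  have := h'.res h.1
  rwa [funext h.2] at this

variable [hp : Fact p.Prime] (hS : IsPGroup p S) (hK : ¬ p ∣ Nat.card K) (hSK : S ≤ No K)
  (hM : M = K ⊔ S)
include hS hK hSK hM

theorem relIndex_dvd_pow : ∃ k, K.relIndex M = p ^ k := by
  obtain ⟨n, hn⟩ := hS.exists_card_eq
  rw [hM, sup_comm, H49.relIndex_sup_of_norm (Or.inl hSK)]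
  exact ((Nat.dvd_prime_pow hp.out).1 (hn ▸ relIndex_dvd_card K S)).imp fun _ h => h.2

theorem exists_rs (ψ : IrrCharacter M) (h : ¬ p ∣ charDegree ψ.1) :
    ∃ θ : IrrCharacter K, Rs ψ.1 θ.1 := by
  obtain ⟨θ, h1⟩ := exists_ov (hM.ge.trans' le_sup_left) ψ
  obtain ⟨e, h2, h3⟩ := h1.exists_deg (hM.le.trans (sup_le le_normalizer hSK))
  obtain ⟨k, hk⟩ := relIndex_dvd_pow hS hK hSK hM
  have h4 : ¬ p ∣ e := fun a => h (h3 ▸ a.mul_right _)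
  rw [Nat.eq_one_of_dvd_coprimes ((hp.out.coprime_iff_not_dvd.2 h4).symm.pow_right k) dvd_rfl
    (hk ▸ h2), one_mul] at h3
  exact ⟨θ, h1.rs_of_deg h3⟩

theorem ext_of_sInv {θ : IrrCharacter K} (h : SInv S K θ.1) : Ext M θ.1 := by
  have hKM : K ≤ M := hM.ge.trans' le_sup_left
  have hN : M ≤ stab K θ.1 := hM.le.trans (sup_le (le_stab_self θ) ((le_stab_iff hSK).2 h))
  have := normal_subgroupOf_of_le_normalizer (hN.trans (stab_le_normalizer _ _))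
  obtain ⟨k, hk⟩ := relIndex_dvd_pow hS hK hSK hM
  have h1 := isIrrCharacter_comp_equiv θ.2 (subgroupOfEquivOfLe hKM)
  obtain ⟨χ, h2, h3⟩ := H30.exists_extension_of_coprime h1
    (fun g n => (hN g.2).2 _ _ rfl) (d := charDegree θ.1) (by
      rw [map_one, H32.cast_charDegree_irr]) (by
      rw [show (K.subgroupOf M).index = _ from hk]
      refine ((hp.out.coprime_iff_not_dvd.2 fun a => hK ?_)).pow_left k
      rcases hp.out.dvd_mul.1 a with a | a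
      · obtain ⟨μ, e⟩ := H30.exists_hom_detChar fun x => θ.1 (subgroupOfEquivOfLe hKM x)
        rw [detOrder, e, H30.orderOf_hom_coe] at a
        exact Nat.card_congr (subgroupOfEquivOfLe hKM).toEquiv ▸
          a.trans (orderOf_dvd_of_pow_eq_one (H30.hom_pow_card μ))
      · exact a.trans (H32.charDegree_dvd_card θ))
  exact ⟨⟨χ, h2⟩, hKM, fun k => h3 ⟨inclusion hKM k, k.2⟩⟩

theorem exists_rs_dt {θ : IrrCharacter K} (h : SInv S K θ.1) (κ : S →* ℂˣ) {n : ℕ}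
    (hn : ¬ p ∣ n) : ∃ ψ : IrrCharacter M, Rs ψ.1 θ.1 ∧ ∀ s : S, dt ψ.1 s ^ n = κ s := by
  obtain ⟨ψ, h1⟩ := ext_of_sInv hS hK hSK hM h
  have hSM : S ≤ M := hM.ge.trans' le_sup_right
  obtain ⟨κ₀, h2⟩ := exists_hom_dt hSM ψ.1
  have h3 : ¬ p ∣ charDegree ψ.1 * n := fun a => (hp.out.dvd_mul.1 a).elim
    (fun a => hK ((h1.deg ▸ a).trans (H32.charDegree_dvd_card θ))) hn
  obtain ⟨a, ha⟩ := hS.exists_card_eq
  obtain ⟨m, hm⟩ := exists_pow_eq_self_of_coprime (x := κ * (κ₀ ^ n)⁻¹) (n := charDegree ψ.1 * n)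
    (((hp.out.coprime_iff_not_dvd.2 h3).symm.pow_right a).coprime_dvd_right
      (ha ▸ orderOf_dvd_of_pow_eq_one (H30.hom_pow_card _)))
  obtain ⟨μ, h4, h5⟩ := exists_hom_ext hM hSK ((κ * (κ₀ ^ n)⁻¹) ^ m) fun x hx => by
    rw [show x = 1 from Subtype.ext (mem_bot.1 ((H49.inf_eq_bot_of_coprime
      (inf_eq_bot_of_not_dvd hS hK)).le ⟨hx, x.2⟩)), map_one]
  refine ⟨⟨_, H30.isIrr_hom_mul μ ψ.2⟩, ⟨h1.1, fun k => by
    simp [h4 (inclusion h1.1 k) k.2, h1.2]⟩, fun s => ?_⟩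
  rw [show (s : Γ) = inclusion hSM s from rfl, dt_hom_mul (ψ := ψ) (μ := μ) fun _ => rfl,
    h5 _ s rfl, mul_pow, ← pow_mul, ← Units.val_pow_eq_pow_val, ← MonoidHom.pow_apply, ← pow_mul,
    mul_comm m, pow_mul, hm, coe_inclusion, h2]
  simp

theorem eq_of_rs_dt {θ : IrrCharacter K} {ψ ψ' : IrrCharacter M} (h : Rs ψ.1 θ.1)
    (h' : Rs ψ'.1 θ.1) {n : ℕ} (hn : ¬ p ∣ n) (e : ∀ s ∈ S, dt ψ.1 s ^ n = dt ψ'.1 s ^ n) :
    ψ = ψ' := by
  have hSM : S ≤ M := hM.ge.trans' le_sup_right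
  obtain ⟨μ, h1, h2⟩ := h.two h' (hM.le.trans (sup_le le_normalizer hSK))
  obtain ⟨κ₀, h3⟩ := exists_hom_dt hSM ψ.1
  have h4 : ¬ p ∣ charDegree ψ.1 * n := fun a => (hp.out.dvd_mul.1 a).elim
    (fun a => hK ((h.deg ▸ a).trans (H32.charDegree_dvd_card θ))) hn
  have h5 := hom_eq_one hM.le h.1 hSM μ h1 fun x hx =>
    hom_eq_of_pow hS (μ.comp (inclusion hSM)) 1 h4 (s := ⟨x, hx⟩) (by
      have := e x hx
      rw [dt_hom_mul h2, mul_pow, ← pow_mul, show dt ψ.1 x = _ from h3 ⟨x, hx⟩, eq_comm,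
        mul_left_eq_self₀, or_iff_left (pow_ne_zero _ (Units.ne_zero _))] at this
      exact this.trans (by simp))
  exact Subtype.ext (funext fun x => by rw [h2, h5]; simp)

end Cfsg.Agent.H86.OW
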