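import Cfsg.Agent.H86.OW5

/-! The McKay count for groups with a normal subgroup `KS` of `p'`-index. -/

set_option autoImplicit false
set_option linter.unusedSectionVars false

namespace Cfsg.Agent.H86.OW

open Cfsg Cfsg.Agent.H5 Cfsg.Agent.H89 Subgroup ComplexConjugate
open Cfsg.Agent.H87 hiding cj stab
open scoped commutatorElement

variable {Γ : Type*} [Group Γ] [Finite Γ] {K X Y S C M M' Z G N : Subgroup Γ} {p : ℕ} {g y : Γ}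

/-- The centraliser of `u` modulo `C`. -/
def Cm (C : Subgroup Γ) (u : Γ) : Subgroup Γ where
  carrier := {x | x ∈ No C ∧ x * u * x⁻¹ * u⁻¹ ∈ C}
  mul_mem' := fun ha hb => ⟨mul_mem ha.1 hb.1, (comm_mul_iff ha.1 ha.2 _).2 hb.2⟩
  one_mem' := ⟨one_mem _, by simp⟩
  inv_mem' := fun {a} ha => ⟨inv_mem ha.1, (comm_mul_iff ha.1 ha.2 a⁻¹).1 (by simp)⟩

theorem comm_two_le (hg : g ∈ No C) (hy : y ∈ No C) (h : y * g * y⁻¹ * g⁻¹ ∈ C) :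
    ⁅C ⊔ zpowers g ⊔ zpowers y, C ⊔ zpowers g ⊔ zpowers y⁆ ≤ C := by
  have hs : ∀ {a b : Γ}, a * b * a⁻¹ * b⁻¹ ∈ C → b * a * b⁻¹ * a⁻¹ ∈ C := fun h => by
    simpa [mul_assoc] using inv_mem h
  have key : ∀ u ∈ No C, g * u * g⁻¹ * u⁻¹ ∈ C → y * u * y⁻¹ * u⁻¹ ∈ C →
      C ⊔ zpowers g ⊔ zpowers y ≤ Cm C u := fun u hu a b =>
    sup_le (sup_le (fun c hc => ⟨le_normalizer hc, by
      simpa [mul_assoc] using mul_mem hc (conj_mem_of_No hu (inv_mem hc))⟩)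
      (zpowers_le.2 ⟨hg, a⟩)) (zpowers_le.2 ⟨hy, b⟩)
  exact commutator_le.2 fun a ha b hb => (key b (key g hg (by simp) h hb).1
    (hs (key g hg (by simp) h hb).2) (hs (key y hy (hs h) (by simp) hb).2) ha).2

/-- The correspondence `Irr_{p'}(KS) → Irr_{p'}(CS)`. -/
def Rho (p : ℕ) (K C S : Subgroup Γ) (ψ : M → ℂ) (φ : M' → ℂ) : Prop :=
  ∃ (θ : IrrCharacter K) (θ' : IrrCharacter C) (h : C ≤ K), Rs ψ θ.1 ∧ Rs φ θ'.1 ∧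
    (mlt (inclusion h) θ.1 θ'.1 : ZMod p) ≠ 0 ∧
      ∀ s ∈ S, dt ψ s ^ charDegree φ = dt φ s ^ charDegree ψ

/-- The standing hypotheses. -/
structure Sit (p : ℕ) (K S C M M' : Subgroup Γ) : Prop where
  hS : IsPGroup p S
  hK : ¬ p ∣ Nat.card K
  hSK : S ≤ No K
  hC : C = K ⊓ Ce S
  hM : M = K ⊔ S
  hM' : M' = C ⊔ S

namespace Sit

variable [hp : Fact p.Prime] (H : Sit p K S C M M')
include H

theorem CK : C ≤ K := H.hC ▸ inf_le_left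
theorem CS : C ≤ Ce S := H.hC ▸ inf_le_right
theorem SC : S ≤ No C := (le_Ce_comm.1 H.CS).trans (Ce_le_No _)
theorem pC : ¬ p ∣ Nat.card C := fun h => H.hK (h.trans (card_dvd_of_le H.CK))
theorem KM : K ≤ M := H.hM ▸ le_sup_left
theorem SM : S ≤ M := H.hM ▸ le_sup_right
theorem CM : C ≤ M' := H.hM' ▸ le_sup_left
theorem SM' : S ≤ M' := H.hM' ▸ le_sup_right
theorem MM : M' ≤ M := H.hM' ▸ sup_le (H.CK.trans H.KM) H.SM
theorem MS : M' ≤ No S := H.hM' ▸ sup_le (H.CS.trans (Ce_le_No _)) le_normalizer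
theorem gc : GCorr p (inclusion H.CK) (SInv S K) :=
  gcorr_pgroup hp.out S H.hS K H.hSK (inf_eq_bot_of_not_dvd H.hS H.hK) C H.hC H.CK
theorem bot {x : Γ} (h : x ∈ K) (h' : x ∈ S) : x = 1 :=
  mem_bot.1 ((H49.inf_eq_bot_of_coprime (inf_eq_bot_of_not_dvd H.hS H.hK)).le ⟨h, h'⟩)
theorem noC (h : g ∈ No K) (h' : g ∈ No S) : g ∈ No C :=
  H.hC ▸ No_inf_No_le _ _ ⟨h, No_le_No_Ce _ h'⟩
theorem noM (h : g ∈ No K) (h' : g ∈ No S) : g ∈ No M := H.hM ▸ No_inf_No_le_sup _ _ ⟨h, h'⟩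
theorem noM' (h : g ∈ No K) (h' : g ∈ No S) : g ∈ No M' :=
  H.hM' ▸ No_inf_No_le_sup _ _ ⟨H.noC h h', h'⟩

theorem inf_No : M ⊓ No S ≤ M' := fun x hx => by
  obtain ⟨k, hk, s, hs, rfl⟩ := exists_mul_of_mem_sup H.hSK (H.hM ▸ hx.1)
  have h1 : k ∈ No S := ((No S).mul_mem_cancel_right (le_normalizer hs)).1 hx.2
  refine mul_mem (H.CM (H.hC ▸ ⟨hk, mem_Ce.2 fun t ht => ?_⟩)) (H.SM' hs)
  have := H.bot (x := t * k * t⁻¹ * k⁻¹) (mul_mem (conj_mem_of_No (H.hSK ht) hk) (inv_mem hk))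
    (by simpa [mul_assoc] using mul_mem ht (conj_mem_of_No h1 (inv_mem ht)))
  rwa [mul_inv_eq_one, mul_inv_eq_iff_eq_mul] at this

variable {ψ ψ' : IrrCharacter M} {φ φ' : IrrCharacter M'}

theorem sInv {θ : IrrCharacter K} (h : Rs ψ.1 θ.1) : SInv S K θ.1 :=
  h.sInv ((sInv_self (cf ψ)).mono H.SM)

theorem deg (h : Rho p K C S ψ.1 φ.1) : ¬ p ∣ charDegree ψ.1 ∧ ¬ p ∣ charDegree φ.1 := by
  obtain ⟨θ, θ', -, h1, h2, -⟩ := h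
  exact ⟨fun a => H.hK ((h1.deg ▸ a).trans (H32.charDegree_dvd_card θ)),
    fun a => H.pC ((h2.deg ▸ a).trans (H32.charDegree_dvd_card θ'))⟩

theorem exists_right (h : ¬ p ∣ charDegree ψ.1) : ∃ φ : IrrCharacter M', Rho p K C S ψ.1 φ.1 := by
  obtain ⟨θ, h1⟩ := exists_rs H.hS H.hK H.hSK H.hM ψ h
  obtain ⟨θ', h2⟩ := H.gc.exists_ne_zero hp.out θ (H.sInv h1)
  obtain ⟨κ, h3⟩ := exists_hom_dt H.SM ψ.1
  obtain ⟨φ, h4, h5⟩ := exists_rs_dt H.hS H.pC H.SC H.hM' (θ := θ') (sInv_of_centralizer H.CS _)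
    (κ ^ charDegree θ'.1) h
  exact ⟨φ, θ, θ', H.CK, h1, h4, h2, fun s hs => by
    rw [h4.deg, h5 ⟨s, hs⟩, h3 ⟨s, hs⟩]; simp⟩

theorem exists_left (h : ¬ p ∣ charDegree φ.1) : ∃ ψ : IrrCharacter M, Rho p K C S ψ.1 φ.1 := by
  obtain ⟨θ', h1⟩ := exists_rs H.hS H.pC H.SC H.hM' φ h
  obtain ⟨θ, h0, h2⟩ := H.gc.surj θ'
  obtain ⟨κ, h3⟩ := exists_hom_dt H.SM' φ.1
  obtain ⟨ψ, h4, h5⟩ := exists_rs_dt H.hS H.hK H.hSK H.hM h0 (κ ^ charDegree θ.1) h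
  exact ⟨ψ, θ, θ', H.CK, h4, h1, h2, fun s hs => by
    rw [h4.deg, h5 ⟨s, hs⟩, h3 ⟨s, hs⟩]; simp⟩

theorem unique_right (h : Rho p K C S ψ.1 φ.1) (h' : Rho p K C S ψ.1 φ'.1) : φ = φ' := by
  have h0 := (H.deg h).1
  obtain ⟨θ, θ', _, h1, h2, h3, h4⟩ := h
  obtain ⟨η, η', _, a1, a2, a3, a4⟩ := h'
  obtain rfl := h1.eq a1
  obtain rfl := H.gc.unique (H.sInv h1) h3 a3
  exact eq_of_rs_dt H.hS H.pC H.SC H.hM' h2 a2 h0 fun s hs => by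
    rw [← h4 s hs, ← a4 s hs, h2.deg, a2.deg]

theorem unique_left (h : Rho p K C S ψ.1 φ.1) (h' : Rho p K C S ψ'.1 φ.1) : ψ = ψ' := by
  have h0 := (H.deg h).2
  obtain ⟨θ, θ', _, h1, h2, h3, h4⟩ := h
  obtain ⟨η, η', _, a1, a2, a3, a4⟩ := h'
  obtain rfl := h2.eq a2
  obtain rfl := H.gc.inj _ _ (H.sInv h1) (H.sInv a1) _ h3 a3
  exact eq_of_rs_dt H.hS H.hK H.hSK H.hM h1 a1 h0 fun s hs => by
    rw [h4 s hs, a4 s hs, h1.deg, a1.deg]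

theorem rho_cj (h : Rho p K C S ψ.1 φ.1) (hK : g ∈ No K) (hS : g ∈ No S)
    (e : IsConjCharOf M g ψ.1 ψ'.1) (e' : IsConjCharOf M' g φ.1 φ'.1) : Rho p K C S ψ'.1 φ'.1 := by
  obtain ⟨θ, θ', a, h1, h2, h3, h4⟩ := h
  obtain ⟨η, b1⟩ := exists_cj hK θ
  obtain ⟨η', b2⟩ := exists_cj (H.noC hK hS) θ'
  refine ⟨η, η', a, h1.cj hK e b1, h2.cj (H.noC hK hS) e' b2,
    by rwa [cj_mlt hK (H.noC hK hS) a b1 b2], fun s hs => ?_⟩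
  have b3 := conj_mem_of_No' hS hs
  rw [show s = g * (g⁻¹ * s * g) * g⁻¹ by group, dt_cj (H.noM hK hS) e (H.SM b3),
    dt_cj (H.noM' hK hS) e' (H.SM' b3), cj_deg e, cj_deg e', h4 _ b3]

theorem overL_iff (hZ : Z ≤ center Γ) (hd : ∀ z ∈ Z, ∃ k ∈ K, ∃ s ∈ S, s ∈ Z ∧ k * s = z)
    (h : Rho p K C S ψ.1 φ.1) (lam : Z →* ℂˣ) : OverL Z lam M ψ.1 ↔ OverL Z lam M' φ.1 := by
  have hZC : Z ⊓ K ≤ C := fun z hz => H.hC ▸ ⟨hz.2, mem_Ce.2 fun s _ => mem_center_iff.1 (hZ hz.1) s⟩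
  have hZM : Z ≤ M' := fun z hz => by
    obtain ⟨k, hk, s, hs, hs', rfl⟩ := hd z hz
    exact mul_mem (H.CM (hZC ⟨(Z.mul_mem_cancel_right hs').1 hz, hk⟩)) (H.SM' hs)
  have key : ∀ l l' : Z →* ℂˣ, OverL Z l M ψ.1 → OverL Z l' M' φ.1 → l = l' := fun l l' a b => by
    obtain ⟨d1, d2⟩ := H.deg h
    obtain ⟨θ, θ', c, h1, h2, h3, h4⟩ := h
    refine MonoidHom.ext fun z => ?_
    obtain ⟨k, hk, s, hs, hs', e⟩ := hd z z.2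
    have hk' : k ∈ Z := (Z.mul_mem_cancel_right hs').1 (e ▸ z.2)
    rw [show z = ⟨k, hk'⟩ * ⟨s, hs'⟩ from Subtype.ext e.symm, map_mul, map_mul,
      overL_eq ((overL_iff_of_mlt hZ c hZC fun e => h3 (by rw [e, Nat.cast_zero])).1 (h1.overL a))
        (h2.overL b) (z := ⟨k, hk'⟩) (hZC ⟨hk', hk⟩)]
    congr 1
    have h5 := h4 s hs
    rw [dt_central hZ (hZM.trans H.MM) a ⟨s, hs'⟩, dt_central hZ hZM b ⟨s, hs'⟩, ← pow_mul,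
      ← pow_mul, mul_comm (charDegree φ.1)] at h5
    exact hom_eq_of_pow (H.hS.to_inf_right (H := Z)) (l.comp (inclusion inf_le_left))
      (l'.comp (inclusion inf_le_left)) (fun a => (hp.out.dvd_mul.1 a).elim d1 d2)
      (s := ⟨s, hs', hs⟩) h5
  obtain ⟨l, a⟩ := exists_overL hZ (hZM.trans H.MM) ψ
  obtain ⟨l', b⟩ := exists_overL hZ hZM φ
  exact ⟨fun c => key _ _ c b ▸ b, fun c => key _ _ a c ▸ a⟩

variable (hS : SylIn p S G) (hKG : K ≤ G) (hGK : G ≤ No K) (hGM : G ≤ No M) (hN : N = G ⊓ No S)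
include hS hKG hGK hGM hN

theorem nOv_rho (h : Rho p K C S ψ.1 φ.1) : nOv G ψ.1 = nOv N φ.1 := by
  have hMG : M ≤ G := H.hM ▸ sup_le hKG hS.le
  have hMN : M' ≤ N := hN ▸ le_inf (H.MM.trans hMG) H.MS
  have hNG : N ≤ G := hN ▸ inf_le_left
  have hNS : N ≤ No S := hN ▸ inf_le_right
  have hNM : N ≤ No M' := fun x hx => H.noM' (hGK (hNG hx)) (hNS hx)
  obtain ⟨T, hT⟩ : ∃ T, T = N ⊓ stab M' φ.1 := ⟨_, rfl⟩
  have hTN : T ≤ N := hT ▸ inf_le_left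
  have hT' : T = N ⊓ stab M ψ.1 := hT.trans (le_antisymm (fun x hx => ⟨hx.1, by
      obtain ⟨ψ', e⟩ := exists_cj (hGM (hNG hx.1)) ψ
      obtain rfl := H.unique_left h (H.rho_cj h (hGK (hNG hx.1)) (hNS hx.1) e hx.2.2)
      exact ⟨hGM (hNG hx.1), e⟩⟩) fun x hx => ⟨hx.1, by
      obtain ⟨φ', e⟩ := exists_cj (hNM hx.1) φ
      obtain rfl := H.unique_right h (H.rho_cj h (hGK (hNG hx.1)) (hNS hx.1) hx.2.2 e)
      exact ⟨hNM hx.1, e⟩⟩)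
  have hMT : M' ≤ T := hT ▸ le_inf hMN (le_stab_self φ)
  have hST := H.SM'.trans hMT
  have h1 := (hS.of_le hST (hTN.trans hNG)).not_dvd_relIndex
  obtain ⟨n, hn⟩ := H.hS.exists_card_eq
  obtain ⟨A, hA⟩ := H49.exists_compl_of_coprime hST (hTN.trans hNS)
    (hn ▸ (hp.out.coprime_iff_not_dvd.2 h1).pow_left n)
  have hAT := hA.right_le
  have hpA : ¬ p ∣ Nat.card A := hA.relIndex_left ▸ h1
  have hAK : A ≤ No K := hAT.trans (hTN.trans (hNG.trans hGK))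
  have hAS : A ≤ No S := hAT.trans (hTN.trans hNS)
  have hAC : A ≤ No C := fun x hx => H.noC (hAK hx) (hAS hx)
  have hCA : C ≤ A := fun c hc => by
    obtain ⟨s, hs, a, ha, rfl⟩ := exists_mul_of_mem_sup hAS (hA.1.ge (hMT (H.CM hc)))
    have h2 : Commute s (s * a) := mem_Ce.1 (H.CS hc) s hs
    have h3 : s⁻¹ ^ (Nat.card C * Nat.card A) = 1 := by
      have := h2.inv_left.mul_pow (Nat.card C * Nat.card A)
      rwa [inv_mul_cancel_left, pow_mul' a, pow_mul (s * a),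
        show a ^ Nat.card A = 1 from congrArg Subtype.val (pow_card_eq_one' (x := (⟨a, ha⟩ : A))),
        show (s * a) ^ Nat.card C = 1 from
          congrArg Subtype.val (pow_card_eq_one' (x := (⟨_, hc⟩ : C))), one_pow, one_pow, mul_one,
        eq_comm] at this
    obtain ⟨k, hk⟩ := H.hS ⟨s⁻¹, inv_mem hs⟩
    have := pow_gcd_eq_one.2 ⟨h3, congrArg Subtype.val hk⟩
    rw [((hp.out.coprime_iff_not_dvd.2 fun a => (hp.out.dvd_mul.1 a).elim H.pC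
      hpA).symm.pow_right k).gcd_eq_one, pow_one, inv_eq_one] at this
    rwa [this, one_mul]
  have h2 : C = M' ⊓ A := le_antisymm (le_inf H.CM hCA) fun x hx => by
    obtain ⟨c, hc, s, hs, rfl⟩ := exists_mul_of_mem_sup H.SC (H.hM' ▸ hx.1)
    rwa [mem_bot.1 (hA.2.1.le ⟨hs, (A.mul_mem_cancel_left (hCA hc)).1 hx.2⟩), mul_one]
  have h3 : C = M ⊓ A := le_antisymm (le_inf (H.CK.trans H.KM) hCA) fun x hx =>
    h2.ge ⟨H.inf_No ⟨hx.1, hAS hx.2⟩, hx.2⟩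
  have h4 : T = M' ⊔ A := le_antisymm (hA.1.ge.trans (sup_le_sup_right H.SM' A)) (sup_le hMT hAT)
  have h5 : G ⊓ stab M ψ.1 = M ⊔ A := le_antisymm (fun x hx => by
      obtain ⟨m, hm, e⟩ := (hS.of_le H.SM hMG).frattini hGM hx.1
      have : m⁻¹ * x ∈ T := hT' ▸ ⟨hN ▸ ⟨G.mul_mem (inv_mem (hMG hm)) hx.1, e⟩,
        (stab M ψ.1).mul_mem (inv_mem (le_stab_self ψ hm)) hx.2⟩
      simpa using mul_mem (mem_sup_left hm) (sup_le_sup_right H.MM A (h4.le this)))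
    (sup_le (le_inf hMG (le_stab_self ψ)) (hAT.trans (hT'.le.trans (inf_le_inf_right _ hNG))))
  obtain ⟨θ, θ', c, r1, r2, r3, -⟩ := h
  have h6 : A ≤ stab M' φ.1 := hAT.trans (hT.le.trans inf_le_right)
  have h7 : A ≤ stab M ψ.1 := hAT.trans (hT'.le.trans inf_le_right)
  have h8 : A ≤ stab C θ'.1 := (le_stab_iff hAC).2 (r2.sInv ((sInv_stab _ _).mono h6))
  rw [nOv_clifford hMG hGM ψ rfl, nOv_clifford hMN hNM φ hT,
    nOv_eq h4 h2 (hT.le.trans inf_le_right) h8 fun g hg y hy hc =>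
      ext_iff_of_rs r2 (h6 hg) (h6 hy) (hAC hg) (hAC hy) hc]
  refine nOv_eq h5 h3 inf_le_right h8 fun g hg y hy hc => ?_
  have h9 : C ⊔ zpowers g ⊔ zpowers y ≤ A :=
    sup_le (sup_le hCA (zpowers_le.2 hg)) (zpowers_le.2 hy)
  rw [ext_iff_of_rs r1 (h7 hg) (h7 hy) (hAK hg) (hAK hy) (c hc), ← ow _ rfl H.hS
    (fun a => (hp.out.dvd_mul.1 ((a.trans (card_dvd_of_le (sup_le_sup_left h9 K))).trans
      (H49.card_sup_dvd (Or.inr hAK)))).elim H.hK hpA) H.hSK (h9.trans hAK) (h9.trans hAS) H.hC c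
    (le_sup_left.trans le_sup_left) (comm_two_le (hAC hg) (hAC hy) hc) (H.sInv r1) r3,
    ← sup_assoc, ← sup_assoc, sup_eq_left.2 c]

theorem card_central (hZ : Z ≤ center Γ) (hd : ∀ z ∈ Z, ∃ k ∈ K, ∃ s ∈ S, s ∈ Z ∧ k * s = z)
    (lam : Z →* ℂˣ) :
    Nat.card {χ : IrrCharacter G // ¬ p ∣ charDegree χ.1 ∧ OverL Z lam G χ.1} =
      Nat.card {χ : IrrCharacter N // ¬ p ∣ charDegree χ.1 ∧ OverL Z lam N χ.1} := by
  have hMG : M ≤ G := H.hM ▸ sup_le hKG hS.le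
  have hMN : M' ≤ N := hN ▸ le_inf (H.MM.trans hMG) H.MS
  have hNG : N ≤ G := hN ▸ inf_le_left
  have hNS : N ≤ No S := hN ▸ inf_le_right
  have hNM : N ≤ No M' := fun x hx => H.noM' (hGK (hNG hx)) (hNS hx)
  have hZM : Z ≤ M := fun z hz => by
    obtain ⟨k, hk, s, hs, -, rfl⟩ := hd z hz
    exact mul_mem (H.KM hk) (H.SM hs)
  have hZM' : Z ≤ M' := fun z hz => H.inf_No ⟨hZM hz, center_le_normalizer _ (hZ hz)⟩
  have k1 : ∀ {X Y : Subgroup Γ}, S ≤ Y → X ≤ G → X ≤ No Y → Z ≤ Y → ∀ {χ : IrrCharacter X}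
      {ψ : IrrCharacter Y}, Ov χ.1 ψ.1 → (¬ p ∣ charDegree χ.1 ∧ OverL Z lam X χ.1 ↔
        ¬ p ∣ charDegree ψ.1 ∧ OverL Z lam Y ψ.1) := fun {X Y} a b c d χ ψ h => by
    obtain ⟨e, h1, h2⟩ := h.exists_deg c
    have h3 : ¬ p ∣ e := fun f => (hS.of_le (a.trans h.1) b).not_dvd_relIndex
      ((f.trans h1).trans (relIndex_dvd_of_le_left X a))
    rw [overL_iff_of_mlt hZ h.1 (inf_le_left.trans d) h.2, h2, hp.out.dvd_mul, or_iff_right h3]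
  refine card_eq_of_classes (Ω := {x : IrrCharacter M × IrrCharacter M' //
      Rho p K C S x.1.1 x.2.1 ∧ OverL Z lam M x.1.1})
    (r := fun x y => ∃ g ∈ N, IsConjCharOf M g x.1.1.1 y.1.1.1 ∧ IsConjCharOf M' g x.1.2.1 y.1.2.1)
    ⟨fun x => ⟨1, one_mem _, cj_self _ (one_mem _), cj_self _ (one_mem _)⟩,
      fun ⟨g, a, b, c⟩ => ⟨g⁻¹, inv_mem a, cj_symm b, cj_symm c⟩, fun ⟨g, a, b, c⟩ ⟨h, d, e, f⟩ =>
        ⟨h * g, mul_mem d a, cj_trans (hGM (hNG a)) b e, cj_trans (hNM a) c f⟩⟩ _ _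
    (fun χ x => Ov χ.1 x.1.1.1) (fun χ x => Ov χ.1 x.1.2.1) (fun χ => ⟨fun h => ?_,
      fun ⟨x, h⟩ => (k1 H.SM le_rfl hGM hZM h).2 ⟨(H.deg x.2.1).1, x.2.2⟩⟩) (fun χ => ⟨fun h => ?_,
      fun ⟨x, h⟩ => (k1 H.SM' hNG hNM hZM' h).2 ⟨(H.deg x.2.1).2,
        (H.overL_iff hZ hd x.2.1 lam).1 x.2.2⟩⟩)
    (fun χ x y h => ⟨fun h' => ?_, fun ⟨g, a, b, _⟩ => h.cj (hNG a) (hGM (hNG a)) b⟩)
    (fun χ x y h => ⟨fun h' => ?_, fun ⟨g, a, _, b⟩ => h.cj a (hNM a) b⟩)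
    fun x => H.nOv_rho hS hKG hGK hGM hN x.2.1
  · obtain ⟨ψ, h1⟩ := exists_ov hMG χ
    obtain ⟨h2, h3⟩ := (k1 H.SM le_rfl hGM hZM h1).1 h
    obtain ⟨φ, h4⟩ := H.exists_right h2
    exact ⟨⟨(ψ, φ), h4, h3⟩, h1⟩
  · obtain ⟨φ, h1⟩ := exists_ov hMN χ
    obtain ⟨h2, h3⟩ := (k1 H.SM' hNG hNM hZM' h1).1 h
    obtain ⟨ψ, h4⟩ := H.exists_left h2
    exact ⟨⟨(ψ, φ), h4, (H.overL_iff hZ hd h4 lam).2 h3⟩, h1⟩
  · obtain ⟨g, h1, h2⟩ := h.exists_cj hGM h'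
    obtain ⟨m, hm, e⟩ := (hS.of_le H.SM hMG).frattini hGM h1
    have h3 : m⁻¹ * g ∈ N := hN ▸ ⟨G.mul_mem (inv_mem (hMG hm)) h1, e⟩
    have h4 := cj_trans (hGM h1) h2 (cj_self _ (inv_mem hm))
    obtain ⟨φ, h5⟩ := exists_cj (hNM h3) x.1.2
    exact ⟨_, h3, h4, H.unique_right (H.rho_cj x.2.1 (hGK (hNG h3)) e h4 h5) y.2.1 ▸ h5⟩
  · obtain ⟨g, h1, h2⟩ := h.exists_cj hNM h'
    obtain ⟨ψ, h5⟩ := exists_cj (hGM (hNG h1)) x.1.1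
    exact ⟨g, h1, H.unique_left (H.rho_cj x.2.1 (hGK (hNG h1)) (hNS h1) h5 h2) y.2.1 ▸ h5, h2⟩

end Sit

end Cfsg.Agent.H86.OW
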