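import Cfsg.Agent.H86.OW6
import Cfsg.Agent.H89.CoprimeDeg
import Cfsg.Agent.H22.PSolvable

/-! The relative McKay count for `p`-solvable groups. -/

set_option autoImplicit false
set_option linter.unusedSectionVars false

namespace Cfsg.Agent.H86.OW

open Cfsg Cfsg.Agent.H5 Cfsg.Agent.H89 Subgroup ComplexConjugate
open Cfsg.Agent.H87 hiding cj stab
open scoped commutatorElement

theorem card_over_congr {A B A' B' : Type*} [Group A] [Group B] [Group A'] [Group B'] [Finite B]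
    [Finite B'] (j : B →* A) (j' : B' →* A') (e₁ : A' ≃* A) (e₂ : B' ≃* B)
    (he : ∀ c, j (e₂ c) = e₁ (j' c)) (p : ℕ) (ν : IrrCharacter B) :
    Nat.card {χ : IrrCharacter A // ¬ p ∣ charDegree χ.1 ∧ mlt j χ.1 ν.1 ≠ 0} =
      Nat.card {χ : IrrCharacter A' // ¬ p ∣ charDegree χ.1 ∧
        mlt j' χ.1 (fun c => ν.1 (e₂ c)) ≠ 0} :=
  Nat.card_congr ((irrCongr e₁).subtypeEquiv fun χ => by
    rw [← mlt_equiv j j' e₁ e₂ he]
    simp [irrCongr, charDegree])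

variable {Γ : Type*} [Group Γ] [Finite Γ] {K L X W S P Z G : Subgroup Γ} {p : ℕ}

theorem cnt_eq (h : L ≤ X) (ν : L → ℂ) : cnt p X ν =
    Nat.card {χ : IrrCharacter X // ¬ p ∣ charDegree χ.1 ∧ mlt (inclusion h) χ.1 ν ≠ 0} :=
  Nat.card_congr (Equiv.subtypeEquivRight fun _ => and_congr_right fun _ =>
    ⟨fun a => a.2, fun a => ⟨h, a⟩⟩)

theorem cnt_subgroupOf (h : L ≤ X) (hX : X ≤ W) (ν : IrrCharacter L) : cnt p X ν.1 =
    cnt p (X.subgroupOf W) fun c => ν.1 (subgroupOfEquivOfLe (h.trans hX) c) := by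
  rw [cnt_eq h, cnt_eq (L := L.subgroupOf W) (X := X.subgroupOf W) (comap_mono h)]
  exact card_over_congr _ _ (subgroupOfEquivOfLe hX) _ (fun _ => rfl) p ν

theorem cnt_eq_zero (hX : X ≤ No L) {ν : IrrCharacter L} (h : p ∣ charDegree ν.1) :
    cnt p X ν.1 = 0 := by
  refine Nat.card_eq_zero.2 (Or.inl ⟨fun χ => ?_⟩)
  obtain ⟨e, -, h1⟩ := χ.2.2.exists_deg hX
  exact χ.2.1 (h1 ▸ h.mul_left e)

variable [hp : Fact p.Prime]

theorem le_sup_of_relIndex {a : ℕ} (h : L.relIndex X = p ^ a) (h' : ¬ p ∣ S.relIndex X) :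
    X ≤ L ⊔ S := relIndex_eq_one.1 (Nat.eq_one_of_dvd_coprimes
  ((hp.out.coprime_iff_not_dvd.2 h').pow_left a) (h ▸ relIndex_dvd_of_le_left X le_sup_left)
    (relIndex_dvd_of_le_left X le_sup_right))

theorem card_central (hZ : Z ≤ center Γ) (hZK : Z ≤ K) (hKG : K ≤ G) (hGK : G ≤ No K)
    (hK : ¬ p ∣ Z.relIndex K) (hZP : Z ≤ P) (hPG : P ≤ G) {a : ℕ} (ha : Z.relIndex P = p ^ a)
    (hP : ¬ p ∣ P.relIndex G) (hG : G ≤ No (K ⊔ P)) (hX : X = G ⊓ No P) (lam : Z →* ℂˣ) :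
    Nat.card {χ : IrrCharacter G // ¬ p ∣ charDegree χ.1 ∧ OverL Z lam G χ.1} =
      Nat.card {χ : IrrCharacter X // ¬ p ∣ charDegree χ.1 ∧ OverL Z lam X χ.1} := by
  obtain ⟨S, hS, -⟩ := exists_sylIn (p := p) IsPGroup.of_bot (bot_le (a := P))
  have hZN : ∀ (Y : Subgroup Γ), Y ≤ No Z := fun Y => le_normalizer_of_conj fun s _ z hz => by
    rwa [mem_center_iff.1 (hZ hz), mul_inv_cancel_right]
  have h1 : P = Z ⊔ S := le_antisymm (le_sup_of_relIndex ha hS.not_dvd_relIndex) (sup_le hZP hS.le)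
  have h2 : SylIn p S G := sylIn_of_not_dvd_relIndex (hS.le.trans hPG) hS.pgp (by
    rw [← relIndex_mul_relIndex _ _ _ hS.le hPG, hp.out.dvd_mul]
    exact fun h => h.elim hS.not_dvd_relIndex hP)
  have h3 : No P = No S := le_antisymm (fun g hg => by
      obtain ⟨y, hy, e⟩ := hS.conj (mem_No_iff_cjS.1 hg ▸ hS.cj g)
      rw [mem_No_iff_cjS, e, ← mem_No_iff_cjS]
      exact (h1.le.trans (sup_le (hZ.trans (center_le_normalizer _)) le_normalizer)) hy)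
    fun g hg => h1 ▸ No_inf_No_le_sup _ _ ⟨hZN ⊤ (mem_top g), hg⟩
  have h4 : S ⊓ K ≤ Z := fun x hx => by
    obtain ⟨k, hk⟩ := hS.pgp ⟨x, hx.1⟩
    exact mem_of_pow_eq_one (hZN K) hK hx.2 (congrArg Subtype.val hk)
  obtain ⟨K₁, j, h5, h6⟩ := exists_hall_part K (S ⊓ K) (h4.trans hZ)
  have h7 : K₁ ≤ K := fun x hx => ((h5 x).1 hx).1
  have h8 : G ≤ No K₁ := le_normalizer_of_conj fun g hg x hx => (h5 _).2
    ⟨conj_mem_of_No (hGK hg) (h7 hx), by rw [conj_pow, ((h5 x).1 hx).2]; simp⟩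
  have h9 : K₁ ⊔ S = K ⊔ P := le_antisymm (sup_le_sup h7 hS.le) (by
    rw [h1, ← sup_assoc, sup_eq_left.2 hZK]
    refine sup_le (fun k hk => ?_) le_sup_right
    obtain ⟨x, hx, z, hz, rfl⟩ := h6 k hk
    exact mul_mem_sup hx hz.1)
  refine Sit.card_central (K := K₁) (S := S) ⟨hS.pgp, hp.out.coprime_iff_not_dvd.1
    (coprime_card_of_forall_pow (fun x => Subtype.ext ((h5 _).1 x.2).2)
      ((hp.out.coprime_iff_not_dvd.2 (h2.inf_normal hKG hGK).not_dvd_relIndex).symm.pow_left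
        j)).symm, h2.le.trans h8, rfl, rfl, rfl⟩ h2 (h7.trans hKG) h8 (h9 ▸ hG) (h3 ▸ hX) hZ
    (fun z hz => ?_) lam
  obtain ⟨x, hx, s, hs, e⟩ := h6 z (hZK hz)
  exact ⟨x, hx, s, hs.1, h4 hs, e.symm⟩

theorem cnt_star [L.Normal] {ν : IrrCharacter L} {E : Type*} [Group E] [Finite E]
    (C : H30.Cover L ν.1 E) (h : L ≤ X) (hν : ¬ p ∣ charDegree ν.1) : cnt p X ν.1 =
      Nat.card {β : IrrCharacter (Tri.star C X) // ¬ p ∣ charDegree β.1 ∧
        OverL (Tri.star C L) (Tri.lamS C) (Tri.star C X) β.1} := by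
  have k : ∀ (χ : IrrCharacter X) (β : IrrCharacter (Tri.star C X)), Tri.Rel C X χ.1 β.1 →
      (¬ p ∣ charDegree χ.1 ↔ ¬ p ∣ charDegree β.1) := fun χ β a => by
    rw [H32.charDegree_eq_of_eq (n := charDegree β.1 * charDegree ν.1) (by
      rw [Nat.cast_mul, H32.cast_charDegree_irr, H32.cast_charDegree_irr, ← a.apply_of_mem h 1,
        map_one]), hp.out.dvd_mul, or_iff_left hν]
  refine H6.card_eq_of_rel (fun χ β => Tri.Rel C X χ.1.1 β.1.1) (fun χ => ?_) (fun β => ?_)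
    (fun _ _ _ a b => Subtype.ext (Subtype.ext (a.right_unique ν.2 h b)))
    fun _ _ _ a b => Subtype.ext (Subtype.ext (a.left_unique b))
  · obtain ⟨β, a⟩ := Tri.exists_rel_of_mlt ν.2 h χ.1 χ.2.2.2 (C := C)
    exact ⟨⟨β, (k _ _ a).1 χ.2.1, a.over ν.2 h⟩, a⟩
  · obtain ⟨χ, a, b⟩ := Tri.exists_rel_irr_of_over ν.2 h β.1 β.2.2
    exact ⟨⟨χ, (k _ _ a).2 β.2.1, h, b⟩, a⟩

theorem cnt_final' [L.Normal] (hLK : L ≤ K) (hKG : K ≤ G) (hGK : G ≤ No K)
    (hK : ¬ p ∣ L.relIndex K) (hLP : L ≤ P) (hPG : P ≤ G) {a : ℕ} (ha : L.relIndex P = p ^ a)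
    (hP : ¬ p ∣ P.relIndex G) (hG : G ≤ No (K ⊔ P)) (hX : X = G ⊓ No P) {ν : IrrCharacter L}
    (hν : SInv ⊤ L ν.1) : cnt p G ν.1 = cnt p X ν.1 := by
  have hN : ∀ Y : Subgroup Γ, Y ≤ No L := fun _ => le_normalizer_of_normal
  by_cases h : p ∣ charDegree ν.1
  · rw [cnt_eq_zero (hN _) h, cnt_eq_zero (hN _) h]
  obtain ⟨E, _, _, ⟨C⟩⟩ := H30.exists_cover L ν.2 fun g n => hν g (mem_top g) n _ rfl
  have hLG := hLK.trans hKG
  have hLX : L ≤ X := hX ▸ le_inf hLG (hLP.trans le_normalizer)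
  rw [cnt_star C hLG h, cnt_star C hLX h]
  refine card_central (Tri.star_le_center C) (Tri.star_mono C hLK) (Tri.star_mono C hKG)
    (Tri.star_le_normalizer C hGK) (by rwa [Tri.relIndex_star C le_rfl]) (Tri.star_mono C hLP)
    (Tri.star_mono C hPG) (by rwa [Tri.relIndex_star C le_rfl]) (by rwa [Tri.relIndex_star C hLP])
    ?_ (Subgroup.ext fun y => ?_) _
  · have := Tri.star_le_normalizer C hG
    rwa [Tri.star, Tri.star, ← comap_sup_eq _ _ _ C.π_surj, Subgroup.map_sup] at this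
  · obtain ⟨γ, rfl⟩ := Tri.q_surj C y
    rw [mem_inf, Tri.q_mem_star_iff C hLX, Tri.q_mem_star_iff C hLG, hX, mem_inf]
    refine and_congr_right fun _ => ⟨fun b => Tri.star_le_normalizer C le_rfl
      (Tri.q_mem_star C b), fun b => mem_normalizer_iff.2 fun x => ?_⟩
    obtain ⟨δ, rfl⟩ := C.π_surj x
    rw [← map_inv, ← map_mul, ← map_mul, ← Tri.q_mem_star_iff C hLP, ← Tri.q_mem_star_iff C hLP,
      map_mul, map_mul, map_inv]
    exact mem_normalizer_iff.1 b _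

theorem cnt_final (hLK : L ≤ K) (hKG : K ≤ G) (hGK : G ≤ No K) (hK : ¬ p ∣ L.relIndex K)
    (hS : SylIn p S G) (hG : G ≤ No (K ⊔ S)) {ν : IrrCharacter L} (hν : G ≤ stab L ν.1) :
    cnt p G ν.1 = cnt p (G ⊓ No (L ⊔ S)) ν.1 := by
  have hLG := hLK.trans hKG
  have hGL := hν.trans (stab_le_normalizer _ _)
  have hPG : L ⊔ S ≤ G := sup_le hLG hS.le
  have := normal_subgroupOf_of_le_normalizer hGL
  obtain ⟨n, hn⟩ := hS.pgp.exists_card_eq
  obtain ⟨a, -, ha⟩ := (Nat.dvd_prime_pow hp.out).1 (hn ▸ relIndex_dvd_card L S)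
  rw [cnt_subgroupOf hLG le_rfl, cnt_subgroupOf (le_inf hLG (le_sup_left.trans le_normalizer))
    inf_le_left]
  refine cnt_final' (L := L.subgroupOf G) (G := G.subgroupOf G) (K := K.subgroupOf G)
    (P := (L ⊔ S).subgroupOf G) (a := a)
    (ν := ⟨_, isIrrCharacter_comp_equiv ν.2 (subgroupOfEquivOfLe hLG)⟩) (comap_mono hLK)
    (comap_mono hKG) ?_ (by rwa [relIndex_subgroupOf hKG]) (comap_mono le_sup_left)
    (comap_mono hPG) ?_ ?_ ?_ ?_ fun g _ _ _ e => (hν g.2).2 _ _ (congrArg Subtype.val e)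
  · exact (comap_mono hGK).trans (subgroupOf_normalizer_eq hKG).le
  · rw [relIndex_subgroupOf hPG, sup_comm, H49.relIndex_sup_of_norm (Or.inl (hS.le.trans hGL)), ha]
  · rw [relIndex_subgroupOf le_rfl]
    exact fun h => hS.not_dvd_relIndex (h.trans (relIndex_dvd_of_le_left G le_sup_right))
  · rw [← subgroupOf_sup hKG hPG, ← sup_assoc, sup_eq_left.2 hLK]
    exact (comap_mono hG).trans (subgroupOf_normalizer_eq (sup_le hKG hS.le)).le
  · rw [No, ← subgroupOf_normalizer_eq hPG]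
    rfl

theorem relIndex_lt_left (h : L < K) (h' : K ≤ G) : K.relIndex G < L.relIndex G := by
  rw [← relIndex_mul_relIndex _ _ _ h.le h']
  exact lt_mul_of_one_lt_left (H49.relIndex_pos K G) (lt_of_le_of_ne (H49.relIndex_pos L K)
    fun e => h.not_ge (relIndex_eq_one.1 e.symm))

theorem relIndex_lt_right (h : L ≤ K) (h' : K < G) : L.relIndex K < L.relIndex G := by
  rw [← relIndex_mul_relIndex _ _ _ h h'.le]
  exact lt_mul_of_one_lt_right (H49.relIndex_pos L K) (lt_of_le_of_ne (H49.relIndex_pos K G)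
    fun e => h'.not_ge (relIndex_eq_one.1 e.symm))

/-- The relative McKay count for `p`-solvable groups. -/
theorem cnt_main (hΓ : IsPSolvable p Γ) (n : ℕ) : ∀ {L G : Subgroup Γ}, L.relIndex G = n → L ≤ G →
    G ≤ No L → SylIn p S G → ∀ {ν : IrrCharacter L}, SInv S L ν.1 →
    cnt p G ν.1 = cnt p (G ⊓ No (L ⊔ S)) ν.1 := by
  induction n using Nat.strong_induction_on with
  | _ n ih =>
  intro L G hn hLG hGL hS ν hν
  have hLN : L ≤ No (L ⊔ S) := le_sup_left.trans le_normalizer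
  have hSN : S ≤ No (L ⊔ S) := le_sup_right.trans le_normalizer
  have hSν := (le_stab_iff (hS.le.trans hGL)).2 hν
  by_cases h : G ≤ stab L ν.1
  swap
  · have k : ∀ X, S ≤ X → X ≤ G → ¬ p ∣ (X ⊓ stab L ν.1).relIndex X := fun X a b c =>
      (hS.of_le a b).not_dvd_relIndex (c.trans (relIndex_dvd_of_le_left X (le_inf a hSν)))
    have a := le_inf hLG (le_stab_self ν)
    rw [cnt_clifford hLG hGL ν rfl (k G hS.le le_rfl), cnt_clifford (le_inf hLG hLN)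
      (inf_le_left.trans hGL) ν rfl (k _ (le_inf hS.le hSN) inf_le_left), inf_right_comm]
    exact ih _ (hn ▸ relIndex_lt_right a (inf_lt_left.2 h)) rfl a (inf_le_left.trans hGL)
      (hS.of_le (le_inf hS.le hSν) inf_le_left) hν
  by_cases h0 : G ≤ L
  · rw [inf_eq_left.2 (h0.trans hLN)]
  have := normal_subgroupOf_of_le_normalizer hGL
  obtain ⟨K₀, a1, a2, a3⟩ := H22.IsPSolvable.exists_normal_gt (H22.IsPSolvable.subgroup hΓ G)
    (L.subgroupOf G) fun e => h0 (subgroupOf_eq_top.1 e)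
  obtain ⟨K, hKG, rfl⟩ : ∃ K, K ≤ G ∧ K₀ = K.subgroupOf G :=
    ⟨K₀.map G.subtype, map_subtype_le _, (comap_map_eq_self_of_injective G.subtype_injective _).symm⟩
  have hLK : L < K := lt_of_le_of_ne (fun x hx => (mem_subgroupOf (h := ⟨x, hLG hx⟩)).1
    (a2.le hx)) fun e =>
    a2.ne (by rw [e])
  have hGK := (normal_subgroupOf_iff_le_normalizer hKG).1 a1
  rw [relIndex_subgroupOf hKG] at a3
  have hKH : K ≤ G ⊓ No (K ⊔ S) := le_inf hKG (le_sup_left.trans le_normalizer)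
  by_cases hH : G ≤ No (K ⊔ S)
  · rcases a3 with ⟨m, hm⟩ | hm
    · have : K ⊔ S = L ⊔ S := le_antisymm (sup_le ((le_sup_of_relIndex hm
        (hS.inf_normal hKG hGK).not_dvd_relIndex).trans (sup_le_sup_left inf_le_left L))
          le_sup_right) (sup_le_sup_right hLK.le S)
      rw [inf_eq_left.2 (this ▸ hH)]
    · exact cnt_final hLK.le hKG hGK (hp.out.coprime_iff_not_dvd.1 hm.symm) hS hH h
  have b : ∀ {X}, K ⊔ X = K ⊔ S → G ⊓ No X ≤ G ⊓ No (K ⊔ S) := fun e x hx =>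
    ⟨hx.1, e ▸ No_inf_No_le_sup _ _ ⟨hGK hx.1, hx.2⟩⟩
  rw [cnt_eq_of_forall hS hGK hKH inf_le_left (b rfl) hLK.le h fun θ hθ =>
    ih _ (hn ▸ relIndex_lt_left hLK hKG) rfl hKG hGK hS hθ,
    ih _ (hn ▸ relIndex_lt_right (hLK.le.trans hKH) (inf_lt_left.2 hH)) rfl (hLK.le.trans hKH)
      (inf_le_left.trans hGL) (hS.of_le ((le_inf hS.le le_normalizer).trans (b rfl)) inf_le_left) hν,
    inf_right_comm, inf_eq_left.2 ((b (by rw [← sup_assoc, sup_eq_left.2 hLK.le])).trans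
      inf_le_right)]

end Cfsg.Agent.H86.OW
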