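import Cfsg.Agent.H86.AvgFix
import Cfsg.Agent.H30.Ramified
import Cfsg.Agent.H32.DefectCard

/-! The `p`-part of the degree of a primitive character of a solvable group divides a class size. -/

set_option autoImplicit false
set_option linter.unusedSectionVars false

namespace Cfsg.Agent.H86.Avg

open Cfsg Cfsg.Agent.H87 Cfsg.Agent.H54 Cfsg.Agent.H52 Subgroup

variable {G : Type*} [Group G] {p : ℕ} [hp : Fact p.Prime]

theorem le_Ce_of_nilpotent {V F : Subgroup G} [V.Normal] [F.Normal]
    (hmin : ∀ M : Subgroup G, M.Normal → M ≤ V → M = ⊥ ∨ M = V) (hF : Group.IsNilpotent F) :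
    F ≤ Ce V := by
  refine commutator_eq_bot_iff_le_centralizer.1 (commutator_comm V F ▸ ?_)
  rcases hmin (V ⊓ F) inferInstance inf_le_left with h | h
  · exact eq_bot_iff.2 ((commutator_le_inf V F).trans h.le)
  by_cases h0 : V = ⊥
  · simp [h0]
  have := H1.commutator_lt_of_nilpotent hF (inf_eq_left.1 h) le_rfl le_normalizer_of_normal h0
  exact (hmin _ inferInstance this.le).resolve_right this.ne

variable [Fintype G]

theorem exists_step (hs : Group.IsSolvable G) {T F P L K : Subgroup G} [T.Normal] [F.Normal]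
    (hF : Group.IsNilpotent F) (hP : IsPGroup p P) (hT : T ≤ F ⊔ P) (h : H30.Chief L K ⊤)
    (hsq : ¬ (L.relIndex K).Prime) : ∃ a : G → ℕ, (∀ g, p ^ a g ∣ (L ⊔ centralizer {g}).relIndex K) ∧
      (∀ g, ∀ y ∈ T, a (g * y) = a g) ∧
      Fintype.card G * (L.relIndex K).factorization p ≤ 2 * ∑ g, a g := by
  have hab := h.der_le_of_solvable inferInstance
  obtain ⟨r, n, hr, hn, e⟩ := h.exists_prime_pow hab
  by_cases hrp : r ≠ p
  · exact ⟨0, by simp, by simp, by simp [e, hr.factorization, hrp]⟩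
  obtain rfl := not_not.1 hrp
  have := H49.normalIn_top_iff.1 h.nL
  have := H49.normalIn_top_iff.1 h.nK
  let π := QuotientGroup.mk' L
  have hπ : Function.Surjective π := QuotientGroup.mk'_surjective L
  obtain ⟨V, hV⟩ : ∃ V, V = K.map π := ⟨_, rfl⟩
  have : V.Normal := hV ▸ Normal.map inferInstance π hπ
  have hc : Nat.card V = r ^ n := by
    rw [← e, hV, ← relIndex_bot_left, ← relIndex_comap, MonoidHom.comap_bot, QuotientGroup.ker_mk']
  have hmin : ∀ M : Subgroup (G ⧸ L), M.Normal → M ≤ V → M = ⊥ ∨ M = V := fun M _ hM => by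
    have h1 : L ≤ M.comap π := QuotientGroup.le_comap_mk' L M
    refine (h.min (M.comap π) (H49.normalIn_top_iff.2 inferInstance) h1 ?_).imp (fun e => ?_)
      fun e => ?_
    · rw [hV] at hM
      exact (comap_mono hM).trans_eq (by rw [QuotientGroup.comap_map_mk', sup_eq_right.2 h.lt.le])
    · rw [← map_comap_eq_self_of_surjective hπ M, e, QuotientGroup.map_mk'_self]
    · rw [← map_comap_eq_self_of_surjective hπ M, e, hV]
  have hVp : IsPGroup r V := IsPGroup.of_card hc
  have hVab : V ≤ Ce V := commutator_eq_bot_iff_le_centralizer.1 (by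
    rw [hV, ← map_commutator, Subgroup.map_eq_bot_iff, QuotientGroup.ker_mk']; exact hab)
  have hne : Ce V ≠ ⊤ := fun e' => by
    obtain ⟨x, hx⟩ := exists_prime_orderOf_dvd_card' (G := V) r (hc ▸ dvd_pow_self r hn.ne')
    rw [← orderOf_coe] at hx
    rcases hmin (zpowers (x : G ⧸ L)) ⟨fun y hy g => by
      rwa [← mem_Ce.1 (e'.ge (mem_top g)) y (zpowers_le.2 x.2 hy), mul_inv_cancel_right]⟩
      (zpowers_le.2 x.2) with e'' | e''
    · rw [zpowers_eq_bot.1 e'', orderOf_one] at hx
      exact hr.one_lt.ne hx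
    · exact hsq (by rwa [e, ← hc, ← e'', Nat.card_zpowers, hx])
  have : (T.map π).Normal := Normal.map inferInstance π hπ
  have : (F.map π).Normal := Normal.map inferInstance π hπ
  have hTV : T.map π ≤ Ce V := le_Ce_of_le_sup hmin hVp (hP.map π) ((map_mono hT).trans (by
    rw [Subgroup.map_sup]
    exact sup_le_sup_right (le_Ce_of_nilpotent hmin (Group.nilpotent_of_surjective _
      (π.subgroupMap_surjective F))) _))
  have h1 : ∀ g, ∃ a, (centralizer {π g}).relIndex V = r ^ a := fun g => by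
    obtain ⟨a, -, ha⟩ := (Nat.dvd_prime_pow hr).1 (hc ▸ relIndex_dvd_card (centralizer {π g}) V)
    exact ⟨a, ha⟩
  choose a ha using h1
  refine ⟨a, fun g => ?_, fun g y hy => Nat.pow_right_injective hr.two_le ?_, ?_⟩
  · rw [← ha, hV, ← relIndex_comap]
    refine relIndex_dvd_of_le_left _ (sup_le (QuotientGroup.le_comap_mk' L _) fun x hx => ?_)
    rw [mem_comap, mem_centralizer_singleton_iff, ← map_mul, ← map_mul,
      mem_centralizer_singleton_iff.1 hx]
  · simp only [← ha]
    rw [← inf_relIndex_right, ← inf_relIndex_right (centralizer {π g})]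
    congr 1
    ext v
    simp only [mem_inf, mem_centralizer_singleton_iff, map_mul, and_congr_left_iff]
    intro hv
    rw [mul_assoc, ← mem_Ce.1 (hTV (mem_map_of_mem π hy)) v hv, ← mul_assoc, ← mul_assoc,
      mul_left_inj]
  have h2 := Nat.mul_le_mul_right (∏ g, (r ^ a g) ^ 2) (prod_le π hπ inferInstance hmin hVp hVab hne)
  simp only [← Finset.prod_mul_distrib, ← mul_pow, ← ha, inf_comm V,
    H49.card_inf_mul_relIndex] at h2
  simp only [ha, hc, ← pow_mul, Finset.prod_pow_eq_pow_sum, ← pow_add, Finset.sum_const,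
    Finset.card_univ, smul_eq_mul, Nat.pow_le_pow_iff_right hr.one_lt, ← Finset.sum_mul] at h2
  rw [e, hr.factorization_pow, Finsupp.single_eq_same]
  nlinarith

theorem exists_fun (hs : Group.IsSolvable G) {χ : G → ℂ} (hχ : IsIrrCharacter G χ)
    (hprim : ¬ ∃ H : Subgroup G, H ≠ ⊤ ∧ ∃ θ : H → ℂ, IsCharacter H θ ∧ indFun H θ = χ)
    {T F P : Subgroup G} [T.Normal] [F.Normal] (hF : Group.IsNilpotent F) (hP : IsPGroup p P)
    (hT : T ≤ F ⊔ P) : ∃ g, ∀ y ∈ T, (charDegree χ).factorization p ≤
      (centralizer {g * y}).index.factorization p := by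
  obtain ⟨U, -, θ, hθ, h1, hq⟩ := H30.exists_ind_quasiprimitive (mem_irr_top.2 hχ)
  obtain rfl : U = ⊤ := by_contra fun e =>
    hprim ⟨U, e, _, H5.isCharacter_of_isIrr (irr_rst hθ), by rw [← ind_top, h1]⟩
  obtain rfl : θ = χ := by rw [← h1, ind_self (irr_CF hθ)]
  have key : ∀ (k : ℕ) (L : Subgroup G), L.index = k → L.Normal → ∀ e : ℕ, nrm L θ = (e : ℝ) ^ 2 →
      ∃ c : G → ℕ, (∀ g, p ^ c g ∣ (L ⊔ centralizer {g}).index) ∧ (∀ g, ∀ y ∈ T, c (g * y) = c g) ∧
        Fintype.card G * e.factorization p ≤ ∑ g, c g := fun k => by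
    induction k using Nat.strong_induction_on with
    | _ k ih =>
    intro L hk hL e he
    by_cases h0 : L = ⊤
    · rw [h0, nrm_of_dot_one (dot_irr_self hθ)] at he
      obtain rfl : e = 1 := by
        have : e ^ 2 = 1 := by exact_mod_cast he.symm
        simpa using this
      exact ⟨0, by simp, by simp, by simp⟩
    obtain ⟨K, -, hK⟩ := H30.exists_chief_above (H := ⊤) (H49.normalIn_top_iff.2 hL)
      (H49.NormalIn.refl ⊤) (lt_top_iff_ne_top.2 h0)
    have hKn := H49.normalIn_top_iff.1 hK.nK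
    obtain ⟨φ, hφ, f, hf⟩ := hq K hK.nK
    have hf0 : (f : ℂ) ≠ 0 := H30.ne_zero_of_res_eq (irr_one_ne_zero hθ) hf
    obtain ⟨c, c1, c2, c3⟩ := ih _ (hk ▸ index_strictAnti hK.lt) K rfl hKn f (H30.nrm_of_res_eq hφ hf)
    have hd : ∀ g, (L ⊔ centralizer {g}).index =
        (L ⊔ centralizer {g}).relIndex K * (K ⊔ centralizer {g}).index := fun g => by
      rw [← H49.relIndex_sup_of_norm (Or.inr le_normalizer_of_normal), ← sup_assoc,
        sup_eq_left.2 hK.lt.le, relIndex_mul_index (sup_le_sup_right hK.lt.le _)]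
    rcases hK.res_irr_or_vanish (hK.der_le_of_solvable inferInstance) hφ (fun g hg =>
      H30.invariant_of_res_eq hK.nK.norm (irr_CF hθ) hf0 hf hg) with h | h
    · have := H30.nrm_of_res_eq h (show res L θ = (f : ℂ) • res L φ by
        rw [← map_smul, ← hf, res_res hK.lt.le])
      obtain rfl : e = f := Nat.pow_left_injective two_ne_zero (by exact_mod_cast he.symm.trans this)
      exact ⟨c, fun g => hd g ▸ (c1 g).mul_left _, c2, c3⟩
    have h2 : e ^ 2 = L.relIndex K * f ^ 2 := by
      have := H30.nrm_eq_of_vanish (φ := θ) hK.lt.le fun x hx hx' => by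
        simpa [res_apply_of_mem _ hx, h x hx hx'] using congrFun hf x
      rw [he, H30.nrm_of_res_eq hφ hf] at this
      exact_mod_cast this
    have h3 : ∀ q, 2 * e.factorization q = (L.relIndex K).factorization q + 2 * f.factorization q :=
      fun q => by
        have := congrArg (fun n => n.factorization q) h2
        simpa [Nat.factorization_mul (H49.relIndex_pos L K).ne' (pow_ne_zero 2 (Nat.cast_ne_zero.1 hf0))]
          using this
    obtain ⟨a, a1, a2, a3⟩ := exists_step hs hF hP hT hK fun hr => by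
      have := h3 (L.relIndex K)
      rw [hr.factorization_self] at this
      omega
    refine ⟨fun g => a g + c g, fun g => by rw [hd, pow_add]; exact mul_dvd_mul (a1 g) (c1 g),
      fun g y hy => by simp only [a2 g y hy, c2 g y hy], ?_⟩
    rw [Finset.sum_add_distrib]
    have := congrArg (Fintype.card G * ·) (h3 p)
    nlinarith
  obtain ⟨c, c1, c2, c3⟩ := key _ ⊥ rfl inferInstance (charDegree θ) (by
    rw [nrm_eq_sum, fin_bot, Finset.sum_singleton,
      ← H32.cast_charDegree (H5.isCharacter_of_isIrr hχ)]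
    simp)
  obtain ⟨g, -, hg⟩ := Finset.exists_le_of_sum_le (s := Finset.univ) Finset.univ_nonempty
    (f := fun _ => (charDegree θ).factorization p) (g := c) (by simpa using c3)
  refine ⟨g, fun y hy => hg.trans ((hp.out.pow_dvd_iff_le_factorization index_ne_zero_of_finite).1 ?_)⟩
  simpa [c2 g y hy] using c1 (g * y)

theorem exists_class (hs : Group.IsSolvable G) {χ : G → ℂ} (hχ : IsIrrCharacter G χ)
    (hprim : ¬ ∃ H : Subgroup G, H ≠ ⊤ ∧ ∃ θ : H → ℂ, IsCharacter H θ ∧ indFun H θ = χ) :
    ∃ g : G, (charDegree χ).factorization p ≤ (centralizer {g}).index.factorization p := by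
  obtain ⟨g, hg⟩ := exists_fun (p := p) hs hχ hprim (T := ⊥) (F := ⊥) (P := ⊥) inferInstance
    IsPGroup.of_bot bot_le
  exact ⟨_, hg 1 (one_mem _)⟩

end Cfsg.Agent.H86.Avg
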