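import Mathlib.Analysis.Normed.Module.FiniteDimension
import Mathlib.NumberTheory.Real.Irrational
import Mathlib.Order.Filter.Ultrafilter.Basic
import Mathlib.Topology.Sequences
import Mathlib.Tactic

/-! Subgroups of Euclidean space on which one coordinate is bounded by the squared norm. -/

set_option autoImplicit false

open Finset Filter Topology

namespace Cfsg.Agent.H86.Vor

variable {ι : Type} [Fintype ι]

theorem disc (H : AddSubgroup (ι → ℝ)) (hc : IsClosed (H : Set (ι → ℝ))) (W : Submodule ℝ (ι → ℝ))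
    (hW : ∀ v ∈ W, (∀ τ : ℝ, τ • v ∈ H) → v = 0) :
    ∃ ε > 0, ∀ y ∈ H, y ∈ W → ‖y‖ < ε → y = 0 := by
  by_contra! h
  choose y h1 h2 h3 h4 using fun n : ℕ => h (1 / ((n : ℝ) + 1)) Nat.one_div_pos_of_nat
  have hp : ∀ n, 0 < ‖y n‖ := fun n => norm_pos_iff.2 (h4 n)
  have hK : IsCompact (Metric.sphere (0 : ι → ℝ) 1 ∩ W) :=
    (isCompact_sphere _ _).inter_right W.closed_of_finiteDimensional
  obtain ⟨v, ⟨v1, v2⟩, φ, hφ, hv⟩ := hK.tendsto_subseq (x := fun n => ‖y n‖⁻¹ • y n) fun n =>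
    ⟨by simp [norm_smul, (hp n).ne'], W.smul_mem _ (h2 n)⟩
  have t0 : Tendsto (fun n => ‖y (φ n)‖) atTop (𝓝 0) :=
    (squeeze_zero (fun n => (hp n).le) (fun n => (h3 n).le)
      tendsto_one_div_add_atTop_nhds_zero_nat).comp hφ.tendsto_atTop
  have : v = 0 := hW v v2 fun τ => by
    have t1 : Tendsto (fun n => (⌊τ / ‖y (φ n)‖⌋ : ℝ) * ‖y (φ n)‖) atTop (𝓝 τ) := by
      refine tendsto_of_tendsto_of_tendsto_of_le_of_le (g := fun n => τ - ‖y (φ n)‖)
        (h := fun _ => τ) (by simpa using t0.const_sub τ) tendsto_const_nhds (fun n => ?_)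
        fun n => ?_
      · have := mul_lt_mul_of_pos_right (Int.sub_one_lt_floor (τ / ‖y (φ n)‖)) (hp (φ n))
        rw [sub_mul, div_mul_cancel₀ _ (hp _).ne', one_mul] at this
        exact this.le
      · exact (le_div_iff₀ (hp _)).1 (Int.floor_le _)
    refine hc.mem_of_tendsto (t1.smul hv) (Eventually.of_forall fun n => ?_)
    have := H.zsmul_mem (h1 (φ n)) ⌊τ / ‖y (φ n)‖⌋
    simp only [Function.comp, smul_smul, mul_assoc, mul_inv_cancel₀ (hp _).ne', mul_one]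
    rwa [Int.cast_smul_eq_zsmul]
  simp [this] at v1

theorem core (o : ι) (H : AddSubgroup (ι → ℝ)) (hc : IsClosed (H : Set (ι → ℝ)))
    (hz : ∀ z : ι → ℤ, (fun j => (z j : ℝ)) ∈ H) (hb : ∀ y ∈ H, y o ≤ ∑ j, y j ^ 2) {y : ι → ℝ}
    (hy : y ∈ H) : ¬ Irrational (y o) := by
  let U : Submodule ℝ (ι → ℝ) :=
    { carrier := {v | ∀ τ : ℝ, τ • v ∈ H}
      add_mem' := fun ha hb τ => by rw [smul_add]; exact H.add_mem (ha τ) (hb τ)
      zero_mem' := fun τ => by rw [smul_zero]; exact H.zero_mem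
      smul_mem' := fun c v hv τ => by rw [smul_smul]; exact hv _ }
  have hU : ∀ v ∈ U, v o = 0 := fun v hv => by
    have hS : 0 ≤ ∑ j, v j ^ 2 := sum_nonneg fun j _ => sq_nonneg _
    have := hb _ (hv (v o / (∑ j, v j ^ 2 + 1)))
    simp only [Pi.smul_apply, smul_eq_mul, mul_pow, ← mul_sum] at this
    generalize ∑ j, v j ^ 2 = S at hS this
    obtain ⟨t, ht⟩ : ∃ t, t = v o / (S + 1) := ⟨_, rfl⟩
    rw [← ht] at this
    rw [eq_div_iff (by positivity)] at ht
    rw [← ht] at this ⊢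
    have : t ^ 2 ≤ 0 := by nlinarith
    rw [pow_eq_zero_iff two_ne_zero |>.1 (le_antisymm this (sq_nonneg t)), zero_mul]
  obtain ⟨W, hW⟩ := U.exists_isCompl
  obtain ⟨ε, e0, he⟩ := disc H hc W fun v h1 h2 => (Submodule.disjoint_def.1 hW.disjoint) v h2 h1
  obtain ⟨δ, d0, hd⟩ := Metric.continuousAt_iff.1 ((W.subtype ∘ₗ W.projectionOnto U
    hW.symm).continuous_of_finiteDimensional.continuousAt (x := 0)) ε e0
  have small : ∀ x ∈ H, ‖x‖ < δ → x o = 0 := fun x hx h => by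
    obtain ⟨u, w, rfl, -⟩ := Submodule.existsUnique_add_of_isCompl hW x
    have h1 := hd (x := u + w) (by simpa using h)
    have h2 : (w : ι → ℝ) = 0 := he w
      ((add_mem_cancel_left (show (u : ι → ℝ) ∈ H by simpa using u.2 1)).1 hx) w.2
      (by simpa using h1)
    rw [h2, add_zero, hU u u.2]
  intro hi
  have hx : ∀ m : ℕ, (fun j => Int.fract (m * y j)) ∈ H := fun m => by
    have := H.sub_mem (H.nsmul_mem hy m) (hz fun j => ⌊m * y j⌋)
    convert this using 1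
    ext j
    rw [Int.fract]
    simp [-Int.self_sub_floor]
  obtain ⟨l, -, φ, hφ, hl⟩ := (isCompact_closedBall (0 : ι → ℝ) 1).tendsto_subseq
    (x := fun (m : ℕ) j => Int.fract (m * y j)) fun m => by
      rw [mem_closedBall_zero_iff, pi_norm_le_iff_of_nonneg zero_le_one]
      exact fun j => by
        rw [Real.norm_of_nonneg (Int.fract_nonneg _)]; exact (Int.fract_lt_one _).le
  obtain ⟨n, hn⟩ := Metric.cauchySeq_iff'.1 hl.cauchySeq δ d0
  have := small _ (H.sub_mem (hx (φ (n + 1))) (hx (φ n))) (by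
    rw [← dist_eq_norm]; exact hn _ n.le_succ)
  obtain ⟨z, hz⟩ := Int.fract_eq_fract.1 (sub_eq_zero.1 this)
  refine (hi.intCast_mul (m := (φ (n + 1) : ℤ) - φ n) ?_).ne_int z (by push_cast; linarith)
  have : φ n < φ (n + 1) := hφ n.lt_succ_self
  omega

theorem bound (o : ι) : ∃ N : ℕ, ∀ (q : ℕ) (a : ι → ℤ), IsCoprime (a o) q →
    (∀ (t : ℤ) (z : ι → ℤ), (z o - t * (a o / q) : ℝ) ≤ ∑ j, (z j - t * (a j / q) : ℝ) ^ 2) →
    q ≤ N := by
  by_contra! h
  choose q a h1 h2 h3 using h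
  let Γ : ℕ → AddSubgroup (ι → ℝ) := fun n =>
    { carrier := {x | ∃ (t : ℤ) (z : ι → ℤ), x = fun j => (z j - t * (a n j / q n) : ℝ)}
      add_mem' := by
        rintro _ _ ⟨t, z, rfl⟩ ⟨t', z', rfl⟩
        exact ⟨t + t', z + z', funext fun j => by simp; ring⟩
      zero_mem' := ⟨0, 0, funext fun j => by simp⟩
      neg_mem' := by
        rintro _ ⟨t, z, rfl⟩
        exact ⟨-t, -z, funext fun j => by simp; ring⟩ }
  let H : AddSubgroup (ι → ℝ) :=
    { carrier := {y | ∀ ε > 0, ∀ᶠ n in (hyperfilter ℕ : Filter ℕ), ∃ γ ∈ Γ n, dist y γ < ε}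
      add_mem' := fun {x y} hx hy ε e => ((hx (ε / 2) (half_pos e)).and (hy (ε / 2) (half_pos e))).mono
        fun n ⟨⟨γ, a1, a2⟩, γ', b1, b2⟩ =>
          ⟨_, add_mem a1 b1, (dist_add_add_le _ _ _ _).trans_lt (by linarith)⟩
      zero_mem' := fun ε e => Eventually.of_forall fun n => ⟨0, zero_mem _, by simpa⟩
      neg_mem' := fun {x} hx ε e => (hx ε e).mono fun n ⟨γ, a1, a2⟩ =>
        ⟨_, neg_mem a1, by rwa [dist_neg_neg]⟩ }
  have hc : IsClosed (H : Set (ι → ℝ)) := isClosed_of_closure_subset fun x hx ε e => by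
    obtain ⟨y, hy, d⟩ := Metric.mem_closure_iff.1 hx (ε / 2) (half_pos e)
    exact (hy (ε / 2) (half_pos e)).mono fun n ⟨γ, a1, a2⟩ =>
      ⟨γ, a1, (dist_triangle x y γ).trans_lt (by linarith)⟩
  have hb : ∀ y ∈ H, y o ≤ ∑ j, y j ^ 2 := fun y hy => by
    have k : IsClosed {x : ι → ℝ | x o ≤ ∑ j, x j ^ 2} := isClosed_le (by fun_prop) (by fun_prop)
    refine k.closure_subset (Metric.mem_closure_iff.2 fun ε e => ?_)
    obtain ⟨n, γ, ⟨t, z, rfl⟩, a2⟩ := (hy ε e).exists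
    exact ⟨_, h2 n t z, a2⟩
  have q0 : ∀ n, (0 : ℝ) < q n := fun n => by exact_mod_cast (Nat.zero_le n).trans_lt (h3 n)
  have ex : ∀ n, ∃ γ ∈ Γ n, γ ∈ Metric.closedBall (0 : ι → ℝ) 1 ∧
      Int.fract √2 - 1 / ((n : ℝ) + 1) ≤ γ o ∧ γ o ≤ Int.fract √2 := fun n => by
    obtain ⟨u, v, e⟩ := h1 n
    obtain ⟨s, hs⟩ : ∃ s, s = ⌊Int.fract √2 * q n⌋ := ⟨_, rfl⟩
    have s1 : (s : ℝ) / q n ≤ Int.fract √2 := (div_le_iff₀ (q0 n)).2 (hs ▸ Int.floor_le _)
    have s2 : Int.fract √2 - 1 / q n ≤ (s : ℝ) / q n := by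
      rw [le_div_iff₀ (q0 n), sub_mul, one_div, inv_mul_cancel₀ (q0 n).ne', hs]
      exact (Int.sub_one_lt_floor _).le
    have s3 : (0 : ℝ) ≤ s / q n := div_nonneg (by
      rw [hs]; exact_mod_cast Int.floor_nonneg.2 (mul_nonneg (Int.fract_nonneg _) (q0 n).le))
      (q0 n).le
    have s4 : Int.fract ((s * u : ℤ) * (a n o / q n) : ℝ) = s / q n := by
      refine Int.fract_eq_iff.2 ⟨s3, s1.trans_lt (Int.fract_lt_one _), -(s * v), ?_⟩
      have e' : (u : ℝ) * a n o + v * q n = 1 := by exact_mod_cast e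
      have := (q0 n).ne'
      push_cast
      field_simp
      linear_combination (s : ℝ) * e'
    refine ⟨fun j => Int.fract ((s * u : ℤ) * (a n j / q n) : ℝ),
      ⟨-(s * u), fun j => -⌊((s * u : ℤ) * (a n j / q n) : ℝ)⌋, funext fun j => by
        rw [Int.fract]; push_cast; ring⟩, ?_, ?_, s4.le.trans s1⟩
    · rw [mem_closedBall_zero_iff, pi_norm_le_iff_of_nonneg zero_le_one]
      exact fun j => by
        rw [Real.norm_of_nonneg (Int.fract_nonneg _)]; exact (Int.fract_lt_one _).le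
    · refine le_trans (sub_le_sub_left (one_div_le_one_div_of_le (by positivity) ?_) _)
        (s2.trans s4.ge)
      exact_mod_cast h3 n
  choose γ g1 g2 g3 g4 using ex
  obtain ⟨y, -, hy⟩ := (isCompact_closedBall (0 : ι → ℝ) 1).ultrafilter_le_nhds
    ((hyperfilter ℕ).map γ) (le_principal_iff.2 (mem_map.2 (univ_mem' g2)))
  have ty : Tendsto γ (hyperfilter ℕ) (𝓝 y) := hy
  have t2 : Tendsto (fun n => γ n o) atTop (𝓝 (Int.fract √2)) :=
    tendsto_of_tendsto_of_tendsto_of_le_of_le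
      (by simpa using tendsto_one_div_add_atTop_nhds_zero_nat.const_sub (Int.fract √2))
      tendsto_const_nhds g3 g4
  have e : y o = Int.fract √2 := tendsto_nhds_unique ((continuous_apply o).tendsto y |>.comp ty)
    (t2.mono_left Nat.hyperfilter_le_atTop)
  refine core o H hc (fun z ε e => Eventually.of_forall fun n =>
    ⟨_, ⟨0, z, rfl⟩, by simpa⟩) hb (y := y) (fun ε e => ?_) ?_
  · exact (Metric.tendsto_nhds.1 ty ε e).mono fun n h => ⟨γ n, g1 n, by rwa [dist_comm]⟩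
  · rw [e]; exact irrational_sqrt_two.sub_intCast _

end Cfsg.Agent.H86.Vor
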